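import Groth.Agent.Sga2lef.H83.Pres
import Groth.Agent.PerfC.PullRestrict

/-!
# Algebraization of regular systems

* `comparison`: `Hom(D', D) → lim Hom(D', D/𝓘^(n+1) D)` is surjective under vanishing of `H^i`, `i ≤ 1`.
* `exists_of_presentation`: the cokernel of the algebraic map of a presentation.
* `algebraize`: a regular system comes from a coherent module.

Author: helper83
-/

set_option autoImplicit false
universe u

open CategoryTheory CategoryTheory.Limits AlgebraicGeometry Opposite TopologicalSpace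

namespace Groth.Agent.Sga2lef.H83.Alg

open Groth.Agent Groth.Agent.Fdesc.LocGen Groth.Agent.FormalB.KQuot Groth.Agent.FormalB.TrKQuot
  Groth.Agent.FormalB.HHLin Groth.Agent.Sga2lef.H83.Frame Groth.Agent.Sga2lef.H83.Sys
  Groth.Agent.Sga2lef.H83.Twist Groth.Agent.Sga2lef.H83.Ker Groth.Agent.Sga2lef.H83.BSys
  Groth.Agent.Sga2lef.H83.Pres

variable {X : Scheme.{u}}

/-! ### Homs from `D'` with `F D' ≅ O^r` -/

section Hom

variable {F : X.Modules ⥤ X.Modules} [F.IsEquivalence] {D : X.Modules} {r : ℕ} (e : F.obj D ≅ FlatMod.freeMod X r)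

include e in
theorem hom_eq_zero {G : X.Modules} (h : Subsingleton (Coh.HH X (F.obj G) 0)) (φ : D ⟶ G) : φ = 0 := by
  have : F.PreservesZeroMorphisms := inferInstance
  apply F.map_injective
  rw [← cancel_epi e.inv]
  refine Sigma.hom_ext _ _ fun k => ?_
  apply Dcoh.Restrict.unit_hom_ext
  apply (Ega3B.SectExact.secEquiv (F.obj G)).symm.injective
  exact Subsingleton.elim (α := Coh.HH X (F.obj G) 0) _ _

include e in
theorem hom_surjective [F.Additive] {S : ShortComplex X.Modules} (hS : S.ShortExact)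
    (h : Subsingleton (Coh.HH X (F.obj S.X₁) 1)) (y : D ⟶ S.X₃) : ∃ φ : D ⟶ S.X₂, φ ≫ S.g = y := by
  have hT : (S.map F).ShortExact := hS.map_of_exact F
  choose t ht using fun k : Fin r => Ega3B.SectExact.surjective_of_H1 hT h
    ((Sigma.ι (fun _ : Fin r => Coh.structureModule X) k ≫ e.inv ≫ F.map y).app ⊤ (Dcoh.Restrict.one ⊤))
  let ψ : FlatMod.freeMod X r ⟶ F.obj S.X₂ := Sigma.desc fun k => Dcoh.Restrict.unitHom (t k)
  have hψ : ψ ≫ F.map S.g = e.inv ≫ F.map y := by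
    refine Sigma.hom_ext _ _ fun k => ?_
    rw [Sigma.ι_desc_assoc, Dcoh.Restrict.unitHom_comp]
    apply Dcoh.Restrict.unit_hom_ext
    rw [Dcoh.Restrict.unitHom_app_one]
    exact ht k
  refine ⟨F.preimage (e.hom ≫ ψ), F.map_injective ?_⟩
  rw [F.map_comp, F.map_preimage, Category.assoc, hψ, e.hom_inv_id_assoc]

end Hom

/-! ### The comparison -/

section Comparison

variable {𝓘 : X.IdealSheafData} {B : X.Modules} (hB : Coh.IsCoh B)

include hB in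
theorem down {D : X.Modules} {χ : ∀ n, D ⟶ Bn 𝓘 B n} (hχ : ∀ n, χ (n + 1) ≫ πB 𝓘 hB n = χ n) (f : D ⟶ B)
    (k n : ℕ) (h : f ≫ pB 𝓘 B (n + k) = χ (n + k)) : f ≫ pB 𝓘 B n = χ n := by
  induction k with
  | zero => exact h
  | succ k ih =>
    apply ih
    have h1 : f ≫ pB 𝓘 B (n + k + 1) = χ (n + k + 1) := h
    rw [← hχ (n + k), ← h1, Category.assoc, pB_πB]

include hB in
theorem shortExact_pB (n : ℕ) :
    (ShortComplex.mk (kernel.ι (pB 𝓘 B n)) (pB 𝓘 B n) (kernel.condition _)).ShortExact where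
  exact := ShortComplex.exact_of_f_is_kernel _ (kernelIsKernel _)
  mono_f := inferInstanceAs (Mono (kernel.ι (pB 𝓘 B n)))
  epi_g := (isKQuot_pB 𝓘 hB n).epi

include hB in
theorem comparison {F : X.Modules ⥤ X.Modules} [F.IsEquivalence] [F.Additive] {D : X.Modules} {r : ℕ}
    (e : F.obj D ≅ FlatMod.freeMod X r) (N : ℕ)
    (hv : ∀ n, N ≤ n → ∀ i ≤ 1, Subsingleton (Coh.HH X (F.obj (kernel (pB 𝓘 B n))) i))
    {χ : ∀ n, D ⟶ Bn 𝓘 B n} (hχ : ∀ n, χ (n + 1) ≫ πB 𝓘 hB n = χ n) :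
    ∃ f : D ⟶ B, ∀ n, f ≫ pB 𝓘 B n = χ n := by
  have hinj : ∀ f g : D ⟶ B, f ≫ pB 𝓘 B N = g ≫ pB 𝓘 B N → f = g := by
    intro f g hfg
    rw [← sub_eq_zero]
    have h1 : (f - g) ≫ pB 𝓘 B N = 0 := by rw [Preadditive.sub_comp, hfg, sub_self]
    have h2 := hom_eq_zero e (hv N le_rfl 0 zero_le_one) (kernel.lift _ (f - g) h1)
    rw [← kernel.lift_ι (pB 𝓘 B N) (f - g) h1, h2, zero_comp]
  choose f hf using fun k : ℕ =>
    hom_surjective e (shortExact_pB hB (N + k)) (hv (N + k) (Nat.le_add_right _ _) 1 le_rfl) (χ (N + k))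
  have hf' : ∀ k, f k ≫ pB 𝓘 B (N + k) = χ (N + k) := hf
  have hconst : ∀ k, f k = f 0 := by
    intro k
    apply hinj
    rw [down hB hχ (f k) k N (hf' k)]
    exact (hf' 0).symm
  refine ⟨f 0, fun n => ?_⟩
  have h1 : f 0 ≫ pB 𝓘 B (N + n) = χ (N + n) := by rw [← hconst n, hf']
  rw [add_comm] at h1
  exact down hB hχ (f 0) N n h1

end Comparison

/-! ### The cokernel -/

theorem exists_of_presentation {𝓘 : X.IdealSheafData} {G : ℕ → X.Modules} {π : ∀ n, G (n + 1) ⟶ G n}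
    (hG : IsRegSys 𝓘 G π) {D D' : X.Modules} (hD : Coh.IsCoh D) (hD' : Coh.IsCoh D')
    (φ : ∀ n, Bn 𝓘 D n ⟶ G n) (hφ : ∀ n, φ (n + 1) ≫ π n = πB 𝓘 hD n ≫ φ n) (hφe : ∀ n, Epi (φ n))
    (φ' : ∀ n, Bn 𝓘 D' n ⟶ kernel (φ n)) (hφ'e : ∀ n, Epi (φ' n))
    (χ : D' ⟶ D) (hχ : ∀ n, χ ≫ pB 𝓘 D n = pB 𝓘 D' n ≫ φ' n ≫ kernel.ι (φ n)) :
    ∃ p : ∀ n, cokernel χ ⟶ G n, (∀ n, p (n + 1) ≫ π n = p n) ∧ ∀ n, IsKQuot (𝓘 ^ (n + 1)) (p n) := by
  have h0 : ∀ n, χ ≫ pB 𝓘 D n ≫ φ n = 0 := fun n => by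
    rw [← Category.assoc, hχ, Category.assoc, Category.assoc, kernel.condition, comp_zero, comp_zero]
  let p : ∀ n, cokernel χ ⟶ G n := fun n => cokernel.desc χ (pB 𝓘 D n ≫ φ n) (h0 n)
  have hp : ∀ n, cokernel.π χ ≫ p n = pB 𝓘 D n ≫ φ n := fun n => cokernel.π_desc _ _ _
  have hpD : ∀ n, Epi (pB 𝓘 D n) := fun n => (isKQuot_pB 𝓘 hD n).epi
  have hpD' : ∀ n, Epi (pB 𝓘 D' n) := fun n => (isKQuot_pB 𝓘 hD' n).epi
  refine ⟨p, fun n => ?_, fun n => ?_⟩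
  · rw [← cancel_epi (cokernel.π χ), ← Category.assoc, hp, hp, Category.assoc, hφ, pB_πB_assoc]
  · have hpe : Epi (pB 𝓘 D n ≫ φ n) := epi_comp _ _
    refine ⟨?_, hG.killed n, fun {Z} ψ hZ => ?_⟩
    · rw [← hp n] at hpe
      exact epi_of_epi (cokernel.π χ) (p n)
    · obtain ⟨ψ', hψ'⟩ := (isKQuot_pB 𝓘 hD n).desc (cokernel.π χ ≫ ψ) hZ
      have h1 : kernel.ι (φ n) ≫ ψ' = 0 := by
        have := hφ'e n
        rw [← cancel_epi (φ' n), ← cancel_epi (pB 𝓘 D' n), comp_zero, comp_zero, ← Category.assoc (φ' n),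
          ← Category.assoc (pB 𝓘 D' n), ← hχ, Category.assoc, hψ', cokernel.condition_assoc, zero_comp]
      refine ⟨Abelian.epiDesc (φ n) ψ' h1, ?_⟩
      rw [← cancel_epi (cokernel.π χ), ← Category.assoc, hp, Category.assoc, Abelian.comp_epiDesc, hψ']

/-- **Algebraization of regular systems.** -/
theorem algebraize [IsLocallyNoetherian X] {𝓘 : X.IdealSheafData} {G : ℕ → X.Modules}
    {π : ∀ n, G (n + 1) ⟶ G n} (hG : IsRegSys 𝓘 G π) {L P : X.Modules} {σ : Coh.structureModule X ⟶ L}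
    (hσ : HasFrame 𝓘 σ) (hLP : ClSub.IsInverseOf L P) (hamp : CohB1.IsAmple L) (hP : PicF.IsInvertible P)
    (A : Type u) [CommRing A] [IsNoetherianRing A] [X.Over (Spec (CommRingCat.of A))]
    (hfin : ∀ M : X.Modules, Coh.IsCoh M → ∀ p, Module.Finite A (Coh.HH X M p))
    (hser : ∀ M : X.Modules, Coh.IsCoh M → ∃ a₀ : ℕ, ∀ a, a₀ ≤ a → Subsingleton (Coh.HH X ((Tpow L a).obj M) 1))
    (hvan : ∃ c : ℕ, ∀ n, c ≤ n → ∀ i ≤ 1, Subsingleton (Coh.HH X (kernel (π n)) i))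
    (hvanB : ∀ r a : ℕ, ∃ c : ℕ, ∀ n, c ≤ n → Subsingleton (Coh.HH X (kernel (πB 𝓘 (isCoh_Dm hP r a) n)) 1))
    (hcomp : ∀ (r a r' a' : ℕ) (χ : ∀ n, Dm P r' a' ⟶ Bn 𝓘 (Dm P r a) n),
      (∀ n, χ (n + 1) ≫ πB 𝓘 (isCoh_Dm hP r a) n = χ n) →
      ∃ f : Dm P r' a' ⟶ Dm P r a, ∀ n, f ≫ pB 𝓘 (Dm P r a) n = χ n) :
    ∃ F : X.Modules, Coh.IsCoh F ∧ ∃ p : ∀ n, F ⟶ G n, (∀ n, p (n + 1) ≫ π n = p n) ∧
      ∀ n, IsKQuot (𝓘 ^ (n + 1)) (p n) := by
  obtain ⟨c, hc⟩ := hvan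
  obtain ⟨a, r, φ, hφ, hφe⟩ := stage hG hσ hLP hamp hP A hfin hser ⟨c, fun n hn => hc n hn 1 le_rfl⟩
  have hD := isCoh_Dm hP r a
  have := mono_of_hasFrame hσ
  have hB := BSys.isRegSys hD hσ (reg_of_isFinLocFree σ (isFinLocFree_Dm hP r a))
  have hK := isRegSys_kernel hG hB φ hφ hφe hσ
  obtain ⟨c', hc'⟩ := hvanB r a
  obtain ⟨a', r', φ', hφ', hφ'e⟩ := stage hK hσ hLP hamp hP A hfin hser
    ⟨max c c', fun n hn => van_kernel hG hB φ hφ hφe hσ n (hc n (le_trans (le_max_left _ _) hn) 0 zero_le_one)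
      (hc' n (le_trans (le_max_right _ _) hn))⟩
  have hD' := isCoh_Dm hP r' a'
  obtain ⟨χ, hχ⟩ := hcomp r a r' a' (fun n => pB 𝓘 (Dm P r' a') n ≫ φ' n ≫ kernel.ι (φ n)) (fun n => by
    rw [Category.assoc, Category.assoc, ← πK_ι φ hφ n, ← Category.assoc (φ' (n + 1)), hφ' n, Category.assoc,
      pB_πB_assoc])
  obtain ⟨p, hp, hp'⟩ := exists_of_presentation hG hD hD' φ hφ hφe φ' hφ'e χ hχ
  exact ⟨cokernel χ, PerfA.CohSerre.isCoh_cokernel χ hD'.1 hD, p, hp, hp'⟩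

/-! ### The vanishing hypotheses -/

theorem subsingleton_HH_free (Φ : X.Modules ⥤ X.Modules) [Φ.Additive] (r p : ℕ)
    (h : Subsingleton (Coh.HH X (Φ.obj (Coh.structureModule X)) p)) :
    Subsingleton (Coh.HH X (Φ.obj (FlatMod.freeMod X r)) p) := by
  have hbp : HasBiproduct (fun _ : Fin r => Coh.structureModule X) := HasBiproduct.of_hasProduct _
  refine Sga2.ThickCoh.subsingleton_HH_of_iso
    (Φ.mapIso (biproduct.isoCoproduct (fun _ : Fin r => Coh.structureModule X))) p ?_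
  refine subsingleton_of_forall_eq 0 fun x => ?_
  have h1 := hm_id _ p x
  rw [← Φ.map_id, ← biproduct.total, Functor.map_sum, hm_sum] at h1
  rw [← h1]
  apply Finset.sum_eq_zero
  intro i _
  rw [Functor.map_comp, hm_comp]
  have h2 : hm (Φ.map (biproduct.π (fun _ : Fin r => Coh.structureModule X) i)) p x = 0 :=
    Subsingleton.elim (α := Coh.HH X (Φ.obj (Coh.structureModule X)) p) _ _
  rw [h2]
  exact map_zero _

/-- `H^i (M ⊗ P^m) = 0` for `i ≤ 1` and `m ≫ 0`. -/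
def Van (P M : X.Modules) : Prop :=
  ∃ m₀ : ℕ, ∀ m, m₀ ≤ m → ∀ i ≤ 1, Subsingleton (Coh.HH X (CohB1.tensorMod M (CohB1.tensorPow P m)) i)

theorem van_Dm {P : X.Modules} (h : Van P (Coh.structureModule X)) (r a : ℕ) : Van P (Dm P r a) := by
  obtain ⟨m₀, h⟩ := h
  refine ⟨m₀, fun m hm i hi => ?_⟩
  have h1 := subsingleton_HH_free (DCoh.tensorRightMod (CohB1.tensorPow P (a + m))) r i (h (a + m) (by omega) i hi)
  let e : CohB1.tensorMod (Dm P r a) (CohB1.tensorPow P m) ≅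
      CohB1.tensorMod (FlatMod.freeMod X r) (CohB1.tensorPow P (a + m)) :=
    Ega2.Tens.assoc _ _ _ ≪≫ Ega2.Tens.mapTIso (Iso.refl _) (Ega2.TensPow.powAdd P a m)
  exact Sga2.ThickCoh.subsingleton_HH_of_iso e.symm i h1

theorem van_ker {𝓘 : X.IdealSheafData} {G : ℕ → X.Modules} {π : ∀ n, G (n + 1) ⟶ G n} (hG : IsRegSys 𝓘 G π)
    {L P : X.Modules} {σ : Coh.structureModule X ⟶ L} (hσ : HasFrame 𝓘 σ) (hLP : ClSub.IsInverseOf L P)
    (hL : PicF.IsInvertible L) (h : Van P (G 0)) :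
    ∃ c : ℕ, ∀ n, c ≤ n → ∀ i ≤ 1, Subsingleton (Coh.HH X (kernel (π n)) i) := by
  obtain ⟨m₀, h⟩ := h
  refine ⟨m₀, fun n hn i hi => ?_⟩
  obtain ⟨e⟩ := nonempty_ker_Tpow_zero hG hσ hL n
  obtain ⟨e'⟩ := nonempty_iso_of_Tpow hLP e
  exact Sga2.ThickCoh.subsingleton_HH_of_iso e'.symm i (h (n + 1) (by omega) i hi)

theorem comparison_Dm {𝓘 : X.IdealSheafData} {L P : X.Modules} {σ : Coh.structureModule X ⟶ L}
    (hσ : HasFrame 𝓘 σ) (hLP : ClSub.IsInverseOf L P) (hL : PicF.IsInvertible L) (hP : PicF.IsInvertible P)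
    (h : Van P (Coh.structureModule X)) (r a r' a' : ℕ) (χ : ∀ n, Dm P r' a' ⟶ Bn 𝓘 (Dm P r a) n)
    (hχ : ∀ n, χ (n + 1) ≫ πB 𝓘 (isCoh_Dm hP r a) n = χ n) :
    ∃ f : Dm P r' a' ⟶ Dm P r a, ∀ n, f ≫ pB 𝓘 (Dm P r a) n = χ n := by
  obtain ⟨m₀, h⟩ := van_Dm h r a
  have := mono_of_hasFrame hσ
  have hr := reg_of_isFinLocFree σ (isFinLocFree_Dm hP r a)
  have hD := isCoh_Dm hP r a
  have := isEquivalence_Tpow hLP a'
  have := (preservesLim hL a').2.2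
  obtain ⟨e⟩ := nonempty_Tpow_Dm hLP r' a'
  refine comparison hD e (m₀ + a') (fun n hn i hi => ?_) hχ
  obtain ⟨n, rfl⟩ : ∃ m, n = m + a' := ⟨n - a', by omega⟩
  obtain ⟨e1⟩ := BSys.nonempty_ker_Tpow hD hσ hr hL a' n
  obtain ⟨e2⟩ := BSys.nonempty_ker_Tpow_zero hD hσ hr hL n
  obtain ⟨e3⟩ := nonempty_iso_of_Tpow hLP e2
  exact Sga2.ThickCoh.subsingleton_HH_of_iso (e3.symm ≪≫ e1.symm) i (h (n + 1) (by omega) i hi)

/-- `B/𝓘B` is the push-forward of the pull-back of `B` to `V(𝓘)`. -/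
theorem Bn_zero (𝓘 : X.IdealSheafData) (B : X.Modules) : Bn 𝓘 B 0 = kq 𝓘 B := by
  rw [Bn, zero_add, pow_one]

/-- **Algebraization of regular systems**, from the vanishing statements. -/
theorem algebraize_of_van [IsLocallyNoetherian X] {𝓘 : X.IdealSheafData} {G : ℕ → X.Modules}
    {π : ∀ n, G (n + 1) ⟶ G n} (hG : IsRegSys 𝓘 G π) {L P : X.Modules} {σ : Coh.structureModule X ⟶ L}
    (hσ : HasFrame 𝓘 σ) (hLP : ClSub.IsInverseOf L P) (hamp : CohB1.IsAmple L)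
    (A : Type u) [CommRing A] [IsNoetherianRing A] [X.Over (Spec (CommRingCat.of A))]
    (hfin : ∀ M : X.Modules, Coh.IsCoh M → ∀ p, Module.Finite A (Coh.HH X M p))
    (hser : ∀ M : X.Modules, Coh.IsCoh M → ∃ a₀ : ℕ, ∀ a, a₀ ≤ a → Subsingleton (Coh.HH X ((Tpow L a).obj M) 1))
    (hvG : Van P (G 0)) (hvO : Van P (Coh.structureModule X))
    (hvV : ∀ E : 𝓘.subscheme.Modules, FlatMod.IsFinLocFree E →
      Van P ((Scheme.Modules.pushforward 𝓘.subschemeι).obj E)) :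
    ∃ F : X.Modules, Coh.IsCoh F ∧ ∃ p : ∀ n, F ⟶ G n, (∀ n, p (n + 1) ≫ π n = p n) ∧
      ∀ n, IsKQuot (𝓘 ^ (n + 1)) (p n) := by
  have hP := (Dix.IdealModCartier.isInvertible_of_isInverseOf hLP).2
  have := mono_of_hasFrame hσ
  refine algebraize hG hσ hLP hamp hP A hfin hser (van_ker hG hσ hLP hamp.1 hvG) (fun r a => ?_)
    (comparison_Dm hσ hLP hamp.1 hP hvO)
  have hB := BSys.isRegSys (isCoh_Dm hP r a) hσ (reg_of_isFinLocFree σ (isFinLocFree_Dm hP r a))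
  have h1 : Van P (Bn 𝓘 (Dm P r a) 0) := by
    rw [Bn_zero]
    exact hvV _ (PerfC.PullRestrict.isFinLocFree_pullback 𝓘.subschemeι (isFinLocFree_Dm hP r a))
  obtain ⟨c, hc⟩ := van_ker hB hσ hLP hamp.1 h1
  exact ⟨c, fun n hn => hc n hn 1 le_rfl⟩

end Groth.Agent.Sga2lef.H83.Alg
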