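import Groth.Agent.Sga2lef.H83.Ker
import Groth.Agent.Sga2.LefAmple389

/-!
# The system `B / 𝓘^(n+1) B` of a coherent module on which `𝓘` is regular

Author: helper83
-/

set_option autoImplicit false
universe u

open CategoryTheory CategoryTheory.Limits AlgebraicGeometry Opposite TopologicalSpace

namespace Groth.Agent.Sga2lef.H83.BSys

open Groth.Agent Groth.Agent.Fdesc.LocGen Groth.Agent.FormalB.KQuot Groth.Agent.FormalB.TrKQuot
  Groth.Agent.FormalB.HHLin Groth.Agent.Sga2lef.H83.Frame Groth.Agent.Sga2lef.H83.Sys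
  Groth.Agent.Sga2lef.H83.Twist Groth.Agent.Sga2lef.H83.Ker

variable {X : Scheme.{u}}

theorem pow_succ_le' (𝓘 : X.IdealSheafData) (n : ℕ) : 𝓘 ^ (n + 1 + 1) ≤ 𝓘 ^ (n + 1) := by
  rw [pow_succ]
  exact mul_le_of_le_one_right' le_top

/-- If `p : M ⟶ N` and `q = p ≫ h : M ⟶ N'` are the quotients by `K ≤ K'`, then `h` is the quotient by `K'`. -/
theorem isKQuot_of_comp {K K' : X.IdealSheafData} {M N N' : X.Modules} {p : M ⟶ N} {h : N ⟶ N'}
    {q : M ⟶ N'} (w : p ≫ h = q) (hp : IsKQuot K p) (hq : IsKQuot K' q) : IsKQuot K' h := by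
  have := hp.epi
  have hq' := hq.epi
  rw [← w] at hq'
  refine ⟨epi_of_epi p h, hq.killed, fun {Z} φ hφ => ?_⟩
  obtain ⟨ψ, hψ⟩ := hq.desc (p ≫ φ) hφ
  refine ⟨ψ, ?_⟩
  rw [← cancel_epi p, ← Category.assoc, w, hψ]

section

variable (𝓘 : X.IdealSheafData) {B : X.Modules} (hB : Coh.IsCoh B)

/-- `B / 𝓘^(n+1) B`. -/
noncomputable def Bn (B : X.Modules) (n : ℕ) : X.Modules := kq (𝓘 ^ (n + 1)) B

/-- `B ⟶ B / 𝓘^(n+1) B`. -/
noncomputable def pB (B : X.Modules) (n : ℕ) : B ⟶ Bn 𝓘 B n := kπ (𝓘 ^ (n + 1)) B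

include hB in
theorem isKQuot_pB (n : ℕ) : IsKQuot (𝓘 ^ (n + 1)) (pB 𝓘 B n) := isKQuot_kπ _ hB.1

include hB in
theorem exists_πB (n : ℕ) : ∃ h : Bn 𝓘 B (n + 1) ⟶ Bn 𝓘 B n, pB 𝓘 B (n + 1) ≫ h = pB 𝓘 B n :=
  (isKQuot_pB 𝓘 hB (n + 1)).desc (pB 𝓘 B n)
    (killedByIdeal_of_le (pow_succ_le' 𝓘 n) (isKQuot_pB 𝓘 hB n).killed)

/-- The transition maps. -/
noncomputable def πB (n : ℕ) : Bn 𝓘 B (n + 1) ⟶ Bn 𝓘 B n := (exists_πB 𝓘 hB n).choose

@[reassoc]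
theorem pB_πB (n : ℕ) : pB 𝓘 B (n + 1) ≫ πB 𝓘 hB n = pB 𝓘 B n := (exists_πB 𝓘 hB n).choose_spec

theorem isKQuot_πB (n : ℕ) : IsKQuot (𝓘 ^ (n + 1)) (πB 𝓘 hB n) :=
  isKQuot_of_comp (pB_πB 𝓘 hB n) (isKQuot_pB 𝓘 hB (n + 1)) (isKQuot_pB 𝓘 hB n)

theorem pB_toZero (n : ℕ) : pB 𝓘 B n ≫ toZero (πB 𝓘 hB) n = pB 𝓘 B 0 := by
  induction n with
  | zero => exact Category.comp_id _
  | succ n ih =>
    change pB 𝓘 B (n + 1) ≫ πB 𝓘 hB n ≫ toZero (πB 𝓘 hB) n = _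
    rw [pB_πB_assoc, ih]

include hB in
theorem pB_app_surjective (n : ℕ) (V : X.affineOpens) : Function.Surjective ((pB 𝓘 B n).app V.1) :=
  IsKQuot.app_surjective (isKQuot_pB 𝓘 hB n) hB.1 V.2

variable {𝓘} {L : X.Modules} {σ : Coh.structureModule X ⟶ L}

include hB in
theorem pB_app_eq_zero_iff (n : ℕ) {V : X.affineOpens} {e : Γ(L, V.1)} {f : Γ(X, V.1)}
    (h : IsFrame 𝓘 σ V e f) (b : Γ(B, V.1)) : (pB 𝓘 B n).app V.1 b = 0 ↔ ∃ b', b = f ^ (n + 1) • b' := by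
  rw [IsKQuot.app_eq_zero_iff (isKQuot_pB 𝓘 hB n) hB.1, h.mem_ideal_smul_iff]

/-- The local equation of `𝓘` is regular on `B`. -/
def Reg (σ : Coh.structureModule X ⟶ L) (B : X.Modules) : Prop := Mono ((sMul σ).app B)

theorem Reg.eq_zero (hr : Reg σ B) {V : X.affineOpens} {e : Γ(L, V.1)} {f : Γ(X, V.1)}
    (h : IsFrame 𝓘 σ V e f) {b : Γ(B, V.1)} (hb : f • b = 0) : b = 0 := by
  have : Mono ((sMul σ).app B) := hr
  apply injective_app_of_mono ((sMul σ).app B) V.1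
  rw [(h.sMul_app_eq_zero_iff b).2 hb]
  exact (map_zero (((sMul σ).app B).app V.1).hom).symm

theorem Reg.pow_cancel (hr : Reg σ B) {V : X.affineOpens} {e : Γ(L, V.1)} {f : Γ(X, V.1)}
    (h : IsFrame 𝓘 σ V e f) (n : ℕ) {b b' : Γ(B, V.1)} (hb : f • b = f ^ (n + 1) • b') : b = f ^ n • b' := by
  rw [← sub_eq_zero]
  apply hr.eq_zero h
  rw [smul_sub, hb, ← mul_smul, ← pow_succ', sub_self]

/-- The regular system of `B`. -/
theorem isRegSys (hσ : HasFrame 𝓘 σ) (hr : Reg σ B) : IsRegSys 𝓘 (Bn 𝓘 B) (πB 𝓘 hB) where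
  coh n := isCoh_kq _ hB
  kq n := isKQuot_πB 𝓘 hB n
  reg n := by
    refine reg_of_frame hσ _ fun V e f hf m hm => ?_
    obtain ⟨b, rfl⟩ := pB_app_surjective 𝓘 hB (n + 1) V m
    rw [← Scheme.Modules.Hom.app_smul, pB_app_eq_zero_iff hB (n + 1) hf] at hm
    obtain ⟨b', hb'⟩ := hm
    have h1 := congr(($(pB_πB 𝓘 hB n)).app V.1 b)
    refine h1.trans ?_
    rw [pB_app_eq_zero_iff hB n hf]
    exact ⟨b', hr.pow_cancel hf (n + 1) hb'⟩

/-! ### The sequence `0 → B → T B → T B_0 → 0` and the kernels of `B → B_n` -/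

theorem sMul_T_pB (hσ : HasFrame 𝓘 σ) : (sMul σ).app B ≫ (DCoh.tensorRightMod L).map (pB 𝓘 B 0) = 0 := by
  apply hom_eq_zero_of_frame hσ
  intro V e f hf m
  change ((DCoh.tensorRightMod L).map (pB 𝓘 B 0)).app V.1 (((sMul σ).app B).app V.1 m) = 0
  rw [hf.sMul_app, map_tmul]
  have h1 : (pB 𝓘 B 0).app V.1 (f • m) = 0 := by
    rw [Scheme.Modules.Hom.app_smul]
    refine hf.smul_eq_zero_of_killed ?_ _
    have h0 : 𝓘 ≤ 𝓘 ^ (0 + 1) := by rw [zero_add, pow_one]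
    exact killedByIdeal_of_le h0 (killed_pushforward (𝓘 ^ (0 + 1))
      ((Scheme.Modules.pullback (𝓘 ^ (0 + 1)).subschemeι).obj B))
  rw [h1]
  exact Ega2.TensGen.zero_tmul e

/-- `0 → B → T B → T B_0 → 0`. -/
noncomputable def SB (B : X.Modules) (hσ : HasFrame 𝓘 σ) : ShortComplex X.Modules :=
  ShortComplex.mk ((sMul σ).app B) ((DCoh.tensorRightMod L).map (pB 𝓘 B 0)) (sMul_T_pB hσ)

include hB in
theorem shortExact_SB (hσ : HasFrame 𝓘 σ) (hr : Reg σ B) : (SB B hσ).ShortExact := by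
  have : Mono ((sMul σ).app B) := hr
  refine VarietyB.ExactLoc.shortExact_of_local _ ?_ ?_ ?_
  · intro U s hs
    apply injective_app_of_mono ((sMul σ).app B) U
    refine Eq.trans hs ?_
    exact (map_zero (((sMul σ).app B).app U).hom).symm
  · intro U s hs x hx
    obtain ⟨V, e, f, hxV, hV, hf⟩ := hσ U x hx
    refine ⟨V.1, hV, hxV, ?_⟩
    obtain ⟨g, hg⟩ := hf.exists_eq_tmul (G := B) (res _ hV s)
    have h1 : ((DCoh.tensorRightMod L).map (pB 𝓘 B 0)).app V.1 (tmul g e) = 0 := by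
      rw [← hg, app_res]
      exact (congrArg _ hs).trans (map_zero _)
    rw [map_tmul] at h1
    obtain ⟨g', rfl⟩ := (pB_app_eq_zero_iff hB 0 hf g).1 (Ega2.TensGen.tmul_gen_eq_zero hf.gen h1)
    refine ⟨g', Eq.trans ?_ hg.symm⟩
    rw [zero_add, pow_one]
    exact hf.sMul_app g'
  · intro U s x hx
    obtain ⟨V, e, f, hxV, hV, hf⟩ := hσ U x hx
    refine ⟨V.1, hV, hxV, ?_⟩
    obtain ⟨g, hg⟩ := hf.exists_eq_tmul (G := Bn 𝓘 B 0) (res _ hV s)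
    obtain ⟨g', rfl⟩ := pB_app_surjective 𝓘 hB 0 V g
    exact ⟨tmul g' e, (map_tmul _ _).trans hg.symm⟩

end

/-- For a morphism of short exact sequences which is an isomorphism on the right, the kernels on the left and in the
middle agree. -/
theorem nonempty_kernelIso {C : Type*} [Category C] [Abelian C] {S S' : ShortComplex C}
    (hS : S.ShortExact) (hS' : S'.ShortExact) (φ : S ⟶ S') (h3 : Mono φ.τ₃) :
    Nonempty (kernel φ.τ₁ ≅ kernel φ.τ₂) := by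
  have := hS.mono_f
  have := hS'.mono_f
  let a : kernel φ.τ₁ ⟶ kernel φ.τ₂ := kernel.map φ.τ₁ φ.τ₂ S.f S'.f φ.comm₁₂
  have ha : a ≫ kernel.ι _ = kernel.ι φ.τ₁ ≫ S.f := kernel.lift_ι _ _ _
  have h0 : kernel.ι φ.τ₂ ≫ S.g = 0 := by
    rw [← cancel_mono φ.τ₃, Category.assoc, ← φ.comm₂₃, kernel.condition_assoc, zero_comp, zero_comp]
  let l : kernel φ.τ₂ ⟶ S.X₁ := hS.exact.lift (kernel.ι _) h0
  have hl : l ≫ S.f = kernel.ι _ := hS.exact.lift_f _ h0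
  have hl' : l ≫ φ.τ₁ = 0 := by
    rw [← cancel_mono S'.f, Category.assoc, φ.comm₁₂, reassoc_of% hl, kernel.condition, zero_comp]
  let b : kernel φ.τ₂ ⟶ kernel φ.τ₁ := kernel.lift _ l hl'
  have hb : b ≫ kernel.ι _ = l := kernel.lift_ι _ _ _
  refine ⟨⟨a, b, ?_, ?_⟩⟩
  · rw [← cancel_mono (kernel.ι φ.τ₁), ← cancel_mono S.f, Category.assoc, Category.assoc,
      reassoc_of% hb, hl, ha, Category.id_comp]
  · rw [← cancel_mono (kernel.ι _), Category.assoc, ha, reassoc_of% hb, hl, Category.id_comp]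

section

variable {𝓘 : X.IdealSheafData} {B : X.Modules} (hB : Coh.IsCoh B) {L : X.Modules}
  {σ : Coh.structureModule X ⟶ L} (hσ : HasFrame 𝓘 σ) (hr : Reg σ B) (hL : PicF.IsInvertible L)

/-- The morphism of sequences `B`, `B_n`. -/
noncomputable def SBmap (n : ℕ) : SB B hσ ⟶ S (isRegSys hB hσ hr) hσ n where
  τ₁ := pB 𝓘 B n
  τ₂ := (DCoh.tensorRightMod L).map (pB 𝓘 B (n + 1))
  τ₃ := 𝟙 _
  comm₁₂ := by
    change pB 𝓘 B n ≫ t (isRegSys hB hσ hr) hσ n = (sMul σ).app B ≫ (DCoh.tensorRightMod L).map (pB 𝓘 B (n + 1))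
    rw [← pB_πB 𝓘 hB n, Category.assoc, π_t]
    exact (sMul σ).naturality (pB 𝓘 B (n + 1))
  comm₂₃ := by
    change (DCoh.tensorRightMod L).map (pB 𝓘 B (n + 1)) ≫
      (DCoh.tensorRightMod L).map (toZero (πB 𝓘 hB) (n + 1)) = (DCoh.tensorRightMod L).map (pB 𝓘 B 0) ≫ 𝟙 _
    rw [Category.comp_id, ← Functor.map_comp, pB_toZero]

include hB hσ hr hL in
theorem nonempty_kerIso (n : ℕ) :
    Nonempty (kernel (pB 𝓘 B n) ≅ (DCoh.tensorRightMod L).obj (kernel (pB 𝓘 B (n + 1)))) := by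
  obtain ⟨e⟩ := nonempty_kernelIso (shortExact_SB hB hσ hr) (shortExact_S (isRegSys hB hσ hr) hσ n)
    (SBmap hB hσ hr n) (inferInstanceAs (Mono (𝟙 _)))
  have := PerfB.TensInv.preservesFiniteLimits_of_isInvertible hL
  exact ⟨e ≪≫ (PreservesKernel.iso (DCoh.tensorRightMod L) (pB 𝓘 B (n + 1))).symm⟩

include hB hσ hr hL in
theorem nonempty_kerIso_zero : Nonempty (B ≅ (DCoh.tensorRightMod L).obj (kernel (pB 𝓘 B 0))) := by
  have hS := shortExact_SB hB hσ hr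
  have := PerfB.TensInv.preservesFiniteLimits_of_isInvertible hL
  have e : B ≅ kernel ((DCoh.tensorRightMod L).map (pB 𝓘 B 0)) :=
    hS.fIsKernel.conePointUniqueUpToIso (limit.isLimit _)
  exact ⟨e ≪≫ (PreservesKernel.iso (DCoh.tensorRightMod L) (pB 𝓘 B 0)).symm⟩

include hB hσ hr hL in
theorem nonempty_ker_Tpow (a : ℕ) : ∀ n,
    Nonempty ((Tpow L a).obj (kernel (pB 𝓘 B (n + a))) ≅ kernel (pB 𝓘 B n)) := by
  induction a with
  | zero => exact fun n => ⟨Iso.refl _⟩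
  | succ a ih =>
    intro n
    obtain ⟨e⟩ := ih n
    obtain ⟨e'⟩ := nonempty_kerIso hB hσ hr hL (n + a)
    exact ⟨(Tpow L a).mapIso e'.symm ≪≫ e⟩

theorem nonempty_Tpow_succ (L : X.Modules) : ∀ (m : ℕ) (M : X.Modules), Nonempty ((Tpow L (m + 1)).obj M ≅
      (DCoh.tensorRightMod L).obj ((Tpow L m).obj M)) := by
  intro m
  induction m with
  | zero => exact fun M => ⟨Iso.refl _⟩
  | succ m ih => exact fun M => ih _

include hB hσ hr hL in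
theorem nonempty_ker_Tpow_zero (n : ℕ) : Nonempty ((Tpow L (n + 1)).obj (kernel (pB 𝓘 B n)) ≅ B) := by
  have h := nonempty_ker_Tpow hB hσ hr hL n 0
  rw [zero_add] at h
  obtain ⟨e⟩ := h
  obtain ⟨e0⟩ := nonempty_kerIso_zero hB hσ hr hL
  obtain ⟨e2⟩ := nonempty_Tpow_succ L n (kernel (pB 𝓘 B n))
  exact ⟨e2 ≪≫ (DCoh.tensorRightMod L).mapIso e ≪≫ e0.symm⟩

end

/-- If `T^a M ≅ N` then `M ≅ N ⊗ P^a`, `P` an inverse of `L`. -/
theorem nonempty_iso_of_Tpow {L P : X.Modules} (hLP : ClSub.IsInverseOf L P) {a : ℕ} {M N : X.Modules}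
    (e : (Tpow L a).obj M ≅ N) : Nonempty (M ≅ CohB1.tensorMod N (CohB1.tensorPow P a)) := by
  obtain ⟨e1⟩ := nonempty_iso_Tpow L a M
  obtain ⟨e2⟩ := Sga2.LefAmple389.isInverseOf_pow hLP a
  exact ⟨((PerfB.TensInv.tensorInvIso e2).app M).symm ≪≫
    (DCoh.tensorRightMod (CohB1.tensorPow P a)).mapIso (e1.symm ≪≫ e)⟩

end Groth.Agent.Sga2lef.H83.BSys
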