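import Groth.Agent.Dix.IdealModCartier
import Groth.Agent.Ega2.TensGen
import Groth.Agent.PerfB.TensExact
import Groth.Agent.VarietyB.ExactLoc

/-!
# The section of `L = O(Y)` cutting out `Y`, local frames, and `s_G : G ⟶ G ⊗ L`

* `HasFrame 𝓘 σ` for `σ : O_X ⟶ L`: every point has arbitrarily small affine neighbourhoods over which `L` has a
  generator `e` and `σ(1) = f e` with `f` a nonzerodivisor generating `𝓘`.
* `exists_section`: `L ⊗ 𝓘 ≅ O_X` gives such a `σ`.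
* `sMul σ : 𝟭 ⟶ - ⊗ L`, and its sections over a frame.

Author: helper83
-/

set_option autoImplicit false
universe u

open CategoryTheory CategoryTheory.Limits AlgebraicGeometry Opposite TopologicalSpace

namespace Groth.Agent.Sga2lef.H83.Frame

open Groth.Agent Groth.Agent.Fdesc.LocGen Groth.Agent.Dix.IdealModCartier Groth.Agent.PerfB.TensExact

variable {X : Scheme.{u}} {L : X.Modules}

/-- `V` is an affine open over which `L` has a generator `e` and `σ(1) = f e` with `f` a nonzerodivisor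
generating `𝓘` (also on smaller affine opens). -/
structure IsFrame (𝓘 : X.IdealSheafData) (σ : Coh.structureModule X ⟶ L) (V : X.affineOpens)
    (e : Γ(L, V.1)) (f : Γ(X, V.1)) : Prop where
  gen : IsGen e
  genOn : GenOn 𝓘 f
  eq : sec σ V.1 = f • e

/-- Frames exist on arbitrarily small neighbourhoods. -/
def HasFrame (𝓘 : X.IdealSheafData) (σ : Coh.structureModule X ⟶ L) : Prop :=
  ∀ (U : X.Opens), ∀ x ∈ U, ∃ (V : X.affineOpens) (e : Γ(L, V.1)) (f : Γ(X, V.1)),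
    x ∈ V.1 ∧ V.1 ≤ U ∧ IsFrame 𝓘 σ V e f

theorem IsFrame.ideal_eq {𝓘 : X.IdealSheafData} {σ : Coh.structureModule X ⟶ L} {V : X.affineOpens}
    {e : Γ(L, V.1)} {f : Γ(X, V.1)} (h : IsFrame 𝓘 σ V e f) : 𝓘.ideal V = Ideal.span {f} := by
  have := (h.genOn V le_rfl).2
  rwa [ores_refl] at this

theorem IsFrame.nonZeroDivisor {𝓘 : X.IdealSheafData} {σ : Coh.structureModule X ⟶ L} {V : X.affineOpens}
    {e : Γ(L, V.1)} {f : Γ(X, V.1)} (h : IsFrame 𝓘 σ V e f) : f ∈ nonZeroDivisors Γ(X, V.1) := by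
  have := (h.genOn V le_rfl).1
  rwa [ores_refl] at this

theorem IsFrame.res {𝓘 : X.IdealSheafData} {σ : Coh.structureModule X ⟶ L} {V : X.affineOpens}
    {e : Γ(L, V.1)} {f : Γ(X, V.1)} (h : IsFrame 𝓘 σ V e f) {W : X.affineOpens} (hW : W.1 ≤ V.1) :
    IsFrame 𝓘 σ W (Fdesc.LocGen.res L hW e) (ores hW f) where
  gen := h.gen.res hW
  genOn := h.genOn.res hW
  eq := by rw [← res_sec σ hW, h.eq, res_smul]

/-- The section of `L` cutting out `V(𝓘)`. -/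
theorem exists_section {𝓘 : X.IdealSheafData} (hL : ClSub.IsInverseOf L (ClSub.idealMod 𝓘)) :
    ∃ σ : Coh.structureModule X ⟶ L, HasFrame 𝓘 σ := by
  obtain ⟨e0⟩ := hL
  obtain ⟨hLinv, hPinv⟩ := isInvertible_of_isInverseOf (L := L) (M := ClSub.idealMod 𝓘) ⟨e0⟩
  let μ : CohB1.tensorMod L (ClSub.idealMod 𝓘) ⟶ L :=
    Ega2.Tens.mapT (𝟙 L) (ClSub.idealModι 𝓘) ≫ (Ega2.Tens.runit L).hom
  refine ⟨e0.inv ≫ μ, fun U x hx => ?_⟩
  obtain ⟨W, e, hxW, hWU, -, he⟩ := Ega2.TensGen.exists_affine_gen hLinv x hx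
  obtain ⟨V, p, hxV, hVW, hV, hp⟩ := Ega2.TensGen.exists_affine_gen hPinv x hxW
  have he' := he.res hVW
  have ht : IsGen (tmul (Fdesc.LocGen.res L hVW e) p) := he'.tmul hp
  have h1 : IsGen (e0.inv.app V (one V)) := (isGen_one V).app e0.inv
  obtain ⟨v, hv, hv'⟩ := ht.exists_unit h1
  refine ⟨⟨V, hV⟩, v • Fdesc.LocGen.res L hVW e, val 𝓘 p, hxV, hVW.trans hWU, he'.unit_smul hv, genOn_of_isGen hp, ?_⟩
  rw [sec_comp, sec, hv', Scheme.Modules.Hom.app_smul]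
  have h2 : μ.app V (tmul (Fdesc.LocGen.res L hVW e) p) = val 𝓘 p • Fdesc.LocGen.res L hVW e := by
    change (Ega2.Tens.runit L).hom.app V ((Ega2.Tens.mapT (𝟙 L) (ClSub.idealModι 𝓘)).app V
      (Ega2.Tens.tmul (Fdesc.LocGen.res L hVW e) p)) = _
    rw [Ega2.Tens.mapT_tmul]
    exact Ega2.Tens.runit_hom_tmul (val 𝓘 p) _
  rw [h2, smul_smul, smul_smul, mul_comm]

/-! ### Multiplication by the section -/

/-- `s_G : G ⟶ G ⊗ L`. -/
noncomputable def sMul (σ : Coh.structureModule X ⟶ L) : 𝟭 X.Modules ⟶ DCoh.tensorRightMod L :=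
  tensorRightModUnit.inv ≫ tensorRightModMap σ

theorem sMul_app (σ : Coh.structureModule X ⟶ L) (G : X.Modules) (V : X.Opens) (g : Γ(G, V)) :
    ((sMul σ).app G).app V g = tmul g (sec σ V) := by
  change (Ega2.Tens.mapT (𝟙 G) σ).app V ((Ega2.Tens.runit G).inv.app V g) = _
  rw [Ega2.Tens.runit_inv_app, Ega2.Tens.mapT_tmul]
  rfl

section

variable {𝓘 : X.IdealSheafData} {σ : Coh.structureModule X ⟶ L} {V : X.affineOpens}
    {e : Γ(L, V.1)} {f : Γ(X, V.1)} (h : IsFrame 𝓘 σ V e f) {G : X.Modules}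
include h

theorem IsFrame.sMul_app (g : Γ(G, V.1)) : ((sMul σ).app G).app V.1 g = tmul (f • g) e := by
  rw [Frame.sMul_app, h.eq, tmul_smul, smul_tmul]

theorem IsFrame.sMul_app_eq_zero_iff (g : Γ(G, V.1)) : ((sMul σ).app G).app V.1 g = 0 ↔ f • g = 0 := by
  rw [h.sMul_app]
  refine ⟨fun h1 => Ega2.TensGen.tmul_gen_eq_zero h.gen h1, fun h1 => ?_⟩
  rw [h1]
  exact Ega2.TensGen.zero_tmul e

/-- Sections of `G ⊗ L` over a frame. -/
theorem IsFrame.exists_eq_tmul (s : Γ((DCoh.tensorRightMod L).obj G, V.1)) : ∃ g : Γ(G, V.1), s = tmul g e :=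
  Ega2.TensGen.exists_eq_tmul h.gen s

omit h in
theorem map_tmul {G' : X.Modules} (φ : G ⟶ G') (g : Γ(G, V.1)) :
    ((DCoh.tensorRightMod L).map φ).app V.1 (tmul g e) = tmul (φ.app V.1 g) e :=
  tensorRightMod_map_tmul L φ V.1 g e

theorem IsFrame.smul_eq_zero_of_killed (hG : ClSub.KilledByIdeal 𝓘 G) (g : Γ(G, V.1)) : f • g = 0 :=
  hG V f (by rw [h.ideal_eq]; exact Ideal.mem_span_singleton_self f) g

theorem IsFrame.smul_eq_zero_iff (g : Γ(G, V.1)) : f • g = 0 ↔ ∀ a ∈ 𝓘.ideal V, a • g = 0 := by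
  rw [h.ideal_eq]
  refine ⟨fun h1 a ha => ?_, fun h1 => h1 f (Ideal.mem_span_singleton_self f)⟩
  obtain ⟨c, rfl⟩ := Ideal.mem_span_singleton'.mp ha
  rw [mul_smul, h1, smul_zero]

theorem IsFrame.mem_ideal_smul_iff (n : ℕ) (g : Γ(G, V.1)) :
    g ∈ (𝓘 ^ n).ideal V • (⊤ : Submodule Γ(X, V.1) Γ(G, V.1)) ↔ ∃ g' : Γ(G, V.1), g = f ^ n • g' := by
  have h1 : (𝓘 ^ n).ideal V = Ideal.span {f ^ n} := by
    rw [Scheme.IdealSheafData.ideal_pow, Pi.pow_apply, h.ideal_eq, Ideal.span_singleton_pow]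
  rw [h1, Submodule.ideal_span_singleton_smul]
  constructor
  · rintro ⟨g', -, hg'⟩
    exact ⟨g', hg'.symm⟩
  · rintro ⟨g', rfl⟩
    exact ⟨g', Submodule.mem_top, rfl⟩

end

end Groth.Agent.Sga2lef.H83.Frame
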