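import Groth.Agent.Sga2lef.H83.Twist
import Groth.Agent.PerfA.CohSerre
import Groth.Agent.Sga67.IdealTorsion

/-!
# Kernels of epimorphisms of regular systems are regular systems

* `isKQuot_of_frame`: criterion for `IsKQuot` on sections over frames.
* `isRegSys_kernel`: for `φ : B ⟶ G` levelwise epi, the kernels form a regular system.
* `van_kernel`: vanishing of `H^1 (ker (πK n))`.

Author: helper83
-/

set_option autoImplicit false
universe u

open CategoryTheory CategoryTheory.Limits AlgebraicGeometry Opposite TopologicalSpace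

namespace Groth.Agent.Sga2lef.H83.Ker

open Groth.Agent Groth.Agent.Fdesc.LocGen Groth.Agent.FormalB.KQuot Groth.Agent.FormalB.TrKQuot
  Groth.Agent.FormalB.HHLin Groth.Agent.Sga2lef.H83.Frame Groth.Agent.Sga2lef.H83.Sys
  Groth.Agent.Sga2lef.H83.Twist

variable {X : Scheme.{u}} {𝓘 : X.IdealSheafData} {L : X.Modules} {σ : Coh.structureModule X ⟶ L}

/-- Criterion for being the quotient by `K` on sections over frames. -/
theorem isKQuot_of_frame (hσ : HasFrame 𝓘 σ) {K : X.IdealSheafData} {M N : X.Modules} (p : M ⟶ N)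
    (hp : Epi p) (hN : ClSub.KilledByIdeal K N)
    (h : ∀ (V : X.affineOpens) (e : Γ(L, V.1)) (f : Γ(X, V.1)), IsFrame 𝓘 σ V e f → ∀ m : Γ(M, V.1),
      p.app V.1 m = 0 → m ∈ K.ideal V • (⊤ : Submodule Γ(X, V.1) Γ(M, V.1))) : IsKQuot K p := by
  refine ⟨hp, hN, fun {Z} φ hφ => ?_⟩
  have hkt : kernel.ι p ≫ φ = 0 := by
    apply hom_eq_zero_of_frame hσ
    intro V e f hf m
    have h1 : p.app V.1 ((kernel.ι p).app V.1 m) = 0 := by
      have := congr(($(kernel.condition p)).app V.1 m)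
      exact this
    exact app_eq_zero_of_mem φ hφ V _ (h V e f hf _ h1)
  exact ⟨Abelian.epiDesc p φ hkt, Abelian.comp_epiDesc p φ hkt⟩

/-- `reg` may be checked on frames. -/
theorem reg_of_frame (hσ : HasFrame 𝓘 σ) {M N : X.Modules} (p : M ⟶ N)
    (h : ∀ (V : X.affineOpens) (e : Γ(L, V.1)) (f : Γ(X, V.1)), IsFrame 𝓘 σ V e f → ∀ m : Γ(M, V.1),
      f • m = 0 → p.app V.1 m = 0) (V : X.affineOpens) (g : Γ(M, V.1)) (hg : ∀ a ∈ 𝓘.ideal V, a • g = 0) :
    p.app V.1 g = 0 := by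
  refine eq_zero_of_frame hσ _ fun W hW e f hf => ?_
  rw [← app_res]
  refine h W e f hf _ ?_
  have h1 : f ∈ 𝓘.ideal W := by
    rw [hf.ideal_eq]
    exact Ideal.mem_span_singleton_self f
  rw [← 𝓘.map_ideal (U := W) (V := V) hW] at h1
  refine Submodule.span_induction (p := fun r _ => r • res M hW g = 0) ?_ ?_ ?_ ?_ h1
  · rintro _ ⟨a, ha, rfl⟩
    have h2 := congrArg (res M hW) (hg a ha)
    rw [res_smul, map_zero] at h2
    exact h2
  · exact zero_smul _ _
  · intro x y _ _ hx hy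
    rw [add_smul, hx, hy, add_zero]
  · intro a x _ hx
    rw [smul_eq_mul, mul_smul, hx, smul_zero]

theorem exists_kernel_ι {M N : X.Modules} (φ : M ⟶ N) (U : X.Opens) (s : Γ(M, U)) (hs : φ.app U s = 0) :
    ∃ t : Γ(kernel φ, U), (kernel.ι φ).app U t = s :=
  Sga67.IdealTorsion.exists_kernel_ι φ U s hs

theorem app_kernel_ι {M N : X.Modules} (φ : M ⟶ N) (U : X.Opens) (t : Γ(kernel φ, U)) :
    φ.app U ((kernel.ι φ).app U t) = 0 :=
  Sga67.IdealTorsion.app_kernel_ι φ U t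

theorem kernel_ι_injective {M N : X.Modules} (φ : M ⟶ N) (U : X.Opens) :
    Function.Injective ((kernel.ι φ).app U) :=
  injective_app_of_mono (kernel.ι φ) U

/-- An element killed by `f^n` at level `n` dies at level `0`. -/
theorem toZero_eq_zero_of_pow_smul {G : ℕ → X.Modules} {π : ∀ n, G (n + 1) ⟶ G n} (hG : IsRegSys 𝓘 G π)
    {V : X.affineOpens} {e : Γ(L, V.1)} {f : Γ(X, V.1)} (h : IsFrame 𝓘 σ V e f) :
    ∀ (n : ℕ) (g : Γ(G n, V.1)), f ^ n • g = 0 → (toZero π n).app V.1 g = 0 := by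
  intro n
  induction n with
  | zero =>
    intro g hg
    rw [pow_zero, one_smul] at hg
    exact hg
  | succ n ih =>
    intro g hg
    rw [pow_succ', mul_smul, hG.smul_eq_zero_iff h, Scheme.Modules.Hom.app_smul] at hg
    exact ih _ hg

section

variable {G B : ℕ → X.Modules} {π : ∀ n, G (n + 1) ⟶ G n} {πB : ∀ n, B (n + 1) ⟶ B n}
  (hG : IsRegSys 𝓘 G π) (hB : IsRegSys 𝓘 B πB) (φ : ∀ n, B n ⟶ G n)
  (hφ : ∀ n, φ (n + 1) ≫ π n = πB n ≫ φ n) (hepi : ∀ n, Epi (φ n))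

/-- The transition maps of the kernel system. -/
noncomputable def πK (n : ℕ) : kernel (φ (n + 1)) ⟶ kernel (φ n) :=
  kernel.map (φ (n + 1)) (φ n) (πB n) (π n) (hφ n)

@[reassoc]
theorem πK_ι (n : ℕ) : πK φ hφ n ≫ kernel.ι (φ n) = kernel.ι (φ (n + 1)) ≫ πB n :=
  kernel.lift_ι _ _ _

theorem πK_app (n : ℕ) (V : X.Opens) (k : Γ(kernel (φ (n + 1)), V)) :
    (kernel.ι (φ n)).app V ((πK φ hφ n).app V k) = (πB n).app V ((kernel.ι (φ (n + 1))).app V k) :=
  congr(($(πK_ι φ hφ n)).app V k)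

include hφ in
theorem φ_app (n : ℕ) (V : X.Opens) (b : Γ(B (n + 1), V)) :
    (π n).app V ((φ (n + 1)).app V b) = (φ n).app V ((πB n).app V b) :=
  congr(($(hφ n)).app V b)

include hG hB hepi in
theorem φ_app_surjective (n : ℕ) (V : X.affineOpens) : Function.Surjective ((φ n).app V.1) := by
  have := hepi n
  have h1 : (B n).IsQuasicoherent := (hB.coh n).1
  have h2 : (G n).IsQuasicoherent := (hG.coh n).1
  exact FormalB.QcSect.surjective_app_of_epi (φ n) V.2

include hG hB hepi in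
/-- Over a frame, an element of `ker (φ n)` lifts to `ker (φ (n+1))`. -/
theorem πK_app_surjective (n : ℕ) {V : X.affineOpens} {e : Γ(L, V.1)} {f : Γ(X, V.1)} (h : IsFrame 𝓘 σ V e f) :
    Function.Surjective ((πK φ hφ n).app V.1) := by
  intro k
  obtain ⟨b', hb'⟩ := hB.app_surjective n V ((kernel.ι (φ n)).app V.1 k)
  have h1 : (π n).app V.1 ((φ (n + 1)).app V.1 b') = 0 := by
    rw [φ_app φ hφ, hb', app_kernel_ι]
  obtain ⟨g', hg'⟩ := (hG.app_eq_zero_iff h n _).1 h1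
  obtain ⟨b'', rfl⟩ := φ_app_surjective hG hB φ hepi (n + 1) V g'
  obtain ⟨k', hk'⟩ := exists_kernel_ι (φ (n + 1)) V.1 (b' - f ^ (n + 1) • b'') (by
    rw [map_sub, Scheme.Modules.Hom.app_smul, hg', sub_self])
  refine ⟨k', kernel_ι_injective (φ n) V.1 ?_⟩
  rw [πK_app, hk', map_sub, Scheme.Modules.Hom.app_smul, hb', hB.pow_smul_eq_zero h, sub_zero]

include hG hB hepi in
theorem isRegSys_kernel [IsLocallyNoetherian X] (hσ : HasFrame 𝓘 σ) :
    IsRegSys 𝓘 (fun n => kernel (φ n)) (πK φ hφ) where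
  coh n := PerfA.CohSerre.isCoh_kernel (φ n) (hB.coh n) (hG.coh n).1
  kq n := by
    refine isKQuot_of_frame hσ _ ?_ (killedByIdeal_of_mono (kernel.ι (φ n)) (hB.killed n)) ?_
    · refine VarietyB.ExactLoc.epi_of_stalk _ fun x => ?_
      intro m
      obtain ⟨U, hxU, s, rfl⟩ := (kernel (φ n)).presheaf.exists_germ_eq m
      obtain ⟨V, e, f, hxV, hV, hf⟩ := hσ U x hxU
      obtain ⟨k, hk⟩ := πK_app_surjective hG hB φ hφ hepi n hf (res _ hV s)
      refine ⟨(kernel (φ (n + 1))).presheaf.germ V.1 x hxV k, ?_⟩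
      rw [CycB.StalkExact.stalkLin_germ, hk]
      exact VarietyB.ExactLoc.germ_res _ hV hxV s
    · intro V e f hf k hk
      have h1 : (πB n).app V.1 ((kernel.ι (φ (n + 1))).app V.1 k) = 0 := by
        rw [← πK_app φ hφ, hk, map_zero]
      obtain ⟨b', hb'⟩ := (hB.app_eq_zero_iff hf n _).1 h1
      have h2 : f ^ (n + 1) • (φ (n + 1)).app V.1 b' = 0 := by
        rw [← Scheme.Modules.Hom.app_smul, ← hb', app_kernel_ι]
      obtain ⟨g', hg'⟩ := (hG.toZero_app_eq_zero_iff hf (n + 1) _).1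
        (toZero_eq_zero_of_pow_smul hG hf (n + 1) _ h2)
      obtain ⟨b'', rfl⟩ := φ_app_surjective hG hB φ hepi (n + 1) V g'
      obtain ⟨k', hk'⟩ := exists_kernel_ι (φ (n + 1)) V.1 (b' - f • b'') (by
        rw [map_sub, Scheme.Modules.Hom.app_smul, hg', sub_self])
      rw [hf.mem_ideal_smul_iff]
      refine ⟨k', kernel_ι_injective (φ (n + 1)) V.1 ?_⟩
      rw [Scheme.Modules.Hom.app_smul, hk', smul_sub, hb', ← mul_smul, ← pow_succ,
        hB.pow_smul_eq_zero hf (n + 1), sub_zero]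
  reg n V g hg := by
    apply kernel_ι_injective (φ n) V.1
    rw [πK_app, map_zero]
    refine hB.reg n V _ fun a ha => ?_
    rw [← Scheme.Modules.Hom.app_smul, hg a ha, map_zero]

/-! ### The kernels of the transition maps -/

/-- The map `ker (πB n) ⟶ ker (π n)`. -/
noncomputable def kφ (n : ℕ) : kernel (πB n) ⟶ kernel (π n) :=
  kernel.map (πB n) (π n) (φ (n + 1)) (φ n) (hφ n).symm

/-- The map `ker (πK n) ⟶ ker (πB n)`. -/
noncomputable def kι (n : ℕ) : kernel (πK φ hφ n) ⟶ kernel (πB n) :=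
  kernel.map (πK φ hφ n) (πB n) (kernel.ι (φ (n + 1))) (kernel.ι (φ n)) (πK_ι φ hφ n)

@[reassoc]
theorem kφ_ι (n : ℕ) : kφ φ hφ n ≫ kernel.ι (π n) = kernel.ι (πB n) ≫ φ (n + 1) := kernel.lift_ι _ _ _

@[reassoc]
theorem kι_ι (n : ℕ) : kι φ hφ n ≫ kernel.ι (πB n) = kernel.ι (πK φ hφ n) ≫ kernel.ι (φ (n + 1)) :=
  kernel.lift_ι _ _ _

theorem kι_kφ (n : ℕ) : kι φ hφ n ≫ kφ φ hφ n = 0 := by
  rw [← cancel_mono (kernel.ι (π n)), Category.assoc, kφ_ι, kι_ι_assoc, kernel.condition, comp_zero,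
    zero_comp]

include hG hB hepi in
theorem shortExact_ker (hσ : HasFrame 𝓘 σ) (n : ℕ) :
    (ShortComplex.mk (kι φ hφ n) (kφ φ hφ n) (kι_kφ φ hφ n)).ShortExact := by
  have e1 : ∀ (V : X.Opens) (k : Γ(kernel (πK φ hφ n), V)), (kernel.ι (πB n)).app V ((kι φ hφ n).app V k) =
      (kernel.ι (φ (n + 1))).app V ((kernel.ι (πK φ hφ n)).app V k) := fun V k =>
    congr(($(kι_ι φ hφ n)).app V k)
  have e2 : ∀ (V : X.Opens) (k : Γ(kernel (πB n), V)), (kernel.ι (π n)).app V ((kφ φ hφ n).app V k) =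
      (φ (n + 1)).app V ((kernel.ι (πB n)).app V k) := fun V k => congr(($(kφ_ι φ hφ n)).app V k)
  refine VarietyB.ExactLoc.shortExact_of_local _ ?_ ?_ ?_
  · intro U s hs
    apply kernel_ι_injective (πK φ hφ n) U
    apply kernel_ι_injective (φ (n + 1)) U
    rw [← e1]
    have hs' : (kι φ hφ n).app U s = 0 := hs
    rw [hs', map_zero, map_zero, map_zero]
  · intro U s hs x hx
    refine ⟨U, le_rfl, hx, ?_⟩
    have hs' : (kφ φ hφ n).app U s = 0 := hs
    have h1 : (φ (n + 1)).app U ((kernel.ι (πB n)).app U s) = 0 := by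
      rw [← e2, hs', map_zero]
    obtain ⟨k, hk⟩ := exists_kernel_ι (φ (n + 1)) U _ h1
    obtain ⟨k', hk'⟩ := exists_kernel_ι (πK φ hφ n) U k (by
      apply kernel_ι_injective (φ n) U
      rw [πK_app, hk, app_kernel_ι, map_zero])
    refine ⟨k', ?_⟩
    apply kernel_ι_injective (πB n) U
    refine (e1 U k').trans ?_
    rw [hk', hk]
    exact congrArg _ (res_refl _ _).symm
  · intro U s x hx
    obtain ⟨V, e, f, hxV, hV, hf⟩ := hσ U x hx
    refine ⟨V.1, hV, hxV, ?_⟩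
    obtain ⟨g', hg'⟩ := (hG.app_eq_zero_iff hf n _).1 (app_kernel_ι (π n) V.1 (res (kernel (π n)) hV s))
    obtain ⟨b', rfl⟩ := φ_app_surjective hG hB φ hepi (n + 1) V g'
    obtain ⟨k, hk⟩ := exists_kernel_ι (πB n) V.1 (f ^ (n + 1) • b') ((hB.app_eq_zero_iff hf n _).2 ⟨b', rfl⟩)
    refine ⟨k, ?_⟩
    apply kernel_ι_injective (π n) V.1
    refine (e2 V.1 k).trans ?_
    rw [hk, Scheme.Modules.Hom.app_smul]
    exact hg'.symm

include hG hB hepi in
/-- Vanishing of `H^1 (ker (πK n))`. -/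
theorem van_kernel (hσ : HasFrame 𝓘 σ) (n : ℕ) (h0 : Subsingleton (Coh.HH X (kernel (π n)) 0))
    (h1 : Subsingleton (Coh.HH X (kernel (πB n)) 1)) : Subsingleton (Coh.HH X (kernel (πK φ hφ n)) 1) := by
  have hS := shortExact_ker hG hB φ hφ hepi hσ n
  refine ⟨fun a b => ?_⟩
  have key : ∀ c : Coh.HH X (kernel (πK φ hφ n)) 1, c = 0 := by
    intro c
    obtain ⟨y, hy⟩ := exact₁ hS 0 c (Subsingleton.elim (α := Coh.HH X (kernel (πB n)) 1) _ _)
    have hy0 : y = 0 := Subsingleton.elim (α := Coh.HH X (kernel (π n)) 0) _ _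
    rw [← hy, hy0]
    exact map_zero _
  rw [key a, key b]

end

end Groth.Agent.Sga2lef.H83.Ker
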