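import Mathlib.RingTheory.Noetherian.Basic
import Mathlib.RingTheory.Finiteness.Basic
import Mathlib.LinearAlgebra.Pi
import Mathlib.Order.OrderIsoNat

/-!
# An abstract stabilisation lemma for bigraded systems of finite modules

`exists_delta_zero`: `M n a` finite modules over a Noetherian ring with maps `π : M (n+1) a → M n a`,
`τ : M n a → M (n+1) (a+1)`, `δ : D a → M n a` (`π τ = τ π`, `π δ = δ`, `ker τ = im δ`).  If `τ` is surjective for
`a ≥ a₀` and `π` is injective for `n ≥ a + c`, then `δ = 0` for large `a` and all `n`.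

Author: helper83
-/

set_option autoImplicit false
universe u v w

namespace Groth.Agent.Sga2lef.H83.Stab

variable {A : Type u} [CommRing A]

section Defs

variable (M : ℕ → ℕ → Type v) [∀ n a, AddCommGroup (M n a)] [∀ n a, Module A (M n a)]
  (π : ∀ n a, M (n + 1) a →ₗ[A] M n a)

/-- The compatible families. -/
def I (a : ℕ) : Submodule A (∀ n, M n a) where
  carrier := {x | ∀ n, π n a (x (n + 1)) = x n}
  add_mem' {x y} hx hy n := by
    change π n a (x (n + 1) + y (n + 1)) = x n + y n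
    rw [map_add, hx n, hy n]
  zero_mem' n := map_zero _
  smul_mem' r x hx n := by
    change π n a (r • x (n + 1)) = r • x n
    rw [map_smul, hx n]

/-- Evaluation at level `n`. -/
def ev (a n : ℕ) : I M π a →ₗ[A] M n a := (LinearMap.proj n).comp (I M π a).subtype

variable {M π}

theorem ev_apply (a n : ℕ) (x : I M π a) : ev M π a n x = x.1 n := rfl

theorem eq_zero_of_le {a : ℕ} (x : I M π a) (n k : ℕ) (h : x.1 (n + k) = 0) : x.1 n = 0 := by
  induction k with
  | zero => exact h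
  | succ k ih =>
    apply ih
    rw [← x.2 (n + k)]
    change π (n + k) a (x.1 (n + (k + 1))) = 0
    rw [h, map_zero]

theorem eq_zero_of_eval {a c : ℕ} (hinj : ∀ n, a + c ≤ n → Function.Injective (π n a)) (x : I M π a)
    (h : x.1 (a + c) = 0) : x = 0 := by
  have h1 : ∀ k, x.1 (a + c + k) = 0 := by
    intro k
    induction k with
    | zero => exact h
    | succ k ih =>
      apply hinj (a + c + k) (by omega)
      rw [map_zero]
      exact (x.2 (a + c + k)).trans ih
  apply Subtype.ext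
  funext n
  apply eq_zero_of_le x n (a + c)
  rw [add_comm n (a + c)]
  exact h1 n

theorem finite_I [IsNoetherianRing A] {a c : ℕ} (hfin : ∀ n, Module.Finite A (M n a))
    (hinj : ∀ n, a + c ≤ n → Function.Injective (π n a)) : Module.Finite A (I M π a) := by
  have := hfin (a + c)
  refine Module.Finite.of_injective (ev M π a (a + c)) ?_
  rw [injective_iff_map_eq_zero]
  intro x hx
  exact eq_zero_of_eval hinj x hx

end Defs

section Main

variable {M : ℕ → ℕ → Type v} [∀ n a, AddCommGroup (M n a)] [∀ n a, Module A (M n a)]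
  {π : ∀ n a, M (n + 1) a →ₗ[A] M n a} (τ : ∀ n a, M n a →ₗ[A] M (n + 1) (a + 1))
  (hπτ : ∀ n a (x : M (n + 1) a), π (n + 1) (a + 1) (τ (n + 1) a x) = τ n a (π n a x))

/-- The shift on compatible families. -/
def T (a : ℕ) : I M π a →ₗ[A] I M π (a + 1) where
  toFun x := ⟨fun n => π n (a + 1) (τ n a (x.1 n)), fun n => by
    have h1 : π n a (x.1 (n + 1)) = x.1 n := x.2 n
    change π n (a + 1) (π (n + 1) (a + 1) (τ (n + 1) a (x.1 (n + 1)))) = π n (a + 1) (τ n a (x.1 n))
    rw [hπτ, h1]⟩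
  map_add' x y := by
    apply Subtype.ext
    funext n
    change π n (a + 1) (τ n a (x.1 n + y.1 n)) = _
    rw [map_add, map_add]
    rfl
  map_smul' r x := by
    apply Subtype.ext
    funext n
    change π n (a + 1) (τ n a (r • x.1 n)) = _
    rw [map_smul, map_smul]
    rfl

theorem T_apply (a n : ℕ) (x : I M π a) : (T τ hπτ a x).1 n = π n (a + 1) (τ n a (x.1 n)) := rfl

theorem T_apply_succ (a n : ℕ) (x : I M π a) : (T τ hπτ a x).1 (n + 1) = τ n a (x.1 n) := by
  rw [T_apply, hπτ]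
  congr 1
  exact x.2 n

variable {D : ℕ → Type w} [∀ a, AddCommGroup (D a)] (δ : ∀ n a, D a →+ M n a)
  (hδ : ∀ n a (d : D a), π n a (δ (n + 1) a d) = δ n a d)
  (hker : ∀ n a (x : M n a), τ n a x = 0 → ∃ d, δ n a d = x)
  (hτδ : ∀ n a (d : D a), τ n a (δ n a d) = 0)

include hδ hker hτδ in
theorem T_surjective (a : ℕ) (hsurj : ∀ n, Function.Surjective (τ n a)) :
    Function.Surjective (T τ hπτ a) := by
  intro y
  have hstep : ∀ (n : ℕ) (x : {x : M n a // τ n a x = y.1 (n + 1)}),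
      ∃ x' : {x : M (n + 1) a // τ (n + 1) a x = y.1 (n + 1 + 1)}, π n a x'.1 = x.1 := by
    intro n x
    obtain ⟨x', hx'⟩ := hsurj (n + 1) (y.1 (n + 1 + 1))
    have h1 : τ n a (π n a x' - x.1) = 0 := by
      rw [map_sub, ← hπτ, hx', x.2, sub_eq_zero]
      exact y.2 (n + 1)
    obtain ⟨d, hd⟩ := hker n a _ h1
    refine ⟨⟨x' - δ (n + 1) a d, ?_⟩, ?_⟩
    · rw [map_sub, hτδ, sub_zero, hx']
    · rw [map_sub, hδ, hd, sub_sub_cancel]
  choose f hf using hstep
  obtain ⟨x0, hx0⟩ := hsurj 0 (y.1 1)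
  let s : ∀ n : ℕ, {x : M n a // τ n a x = y.1 (n + 1)} := fun n =>
    Nat.rec ⟨x0, hx0⟩ (fun n x => f n x) n
  refine ⟨⟨fun n => (s n).1, fun n => hf n (s n)⟩, ?_⟩
  apply Subtype.ext
  funext n
  rw [T_apply]
  change π n (a + 1) (τ n a (s n).1) = y.1 n
  rw [(s n).2]
  exact y.2 n

/-- The iterated shift. -/
def g (a₀ : ℕ) : ∀ k : ℕ, I M π a₀ →ₗ[A] I M π (a₀ + k)
  | 0 => LinearMap.id
  | k + 1 => (T τ hπτ (a₀ + k)).comp (g a₀ k)

include hδ hker hτδ in
theorem exists_T_injective [IsNoetherianRing A] (hfin : ∀ n a, Module.Finite A (M n a)) (a₀ : ℕ)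
    (hsurj : ∀ a, a₀ ≤ a → ∀ n, Function.Surjective (τ n a)) (c : ℕ)
    (hinj : ∀ a n, a + c ≤ n → Function.Injective (π n a)) :
    ∃ a₁, ∀ a, a₁ ≤ a → Function.Injective (T τ hπτ a) := by
  have hf : Module.Finite A (I M π a₀) := finite_I (hfin · a₀) (hinj a₀)
  have hn : IsNoetherian A (I M π a₀) := isNoetherian_of_isNoetherianRing_of_finite A _
  have hs : ∀ k, Function.Surjective (g τ hπτ a₀ k) := by
    intro k
    induction k with
    | zero => exact Function.surjective_id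
    | succ k ih =>
      exact (T_surjective τ hπτ δ hδ hker hτδ (a₀ + k) (hsurj _ (by omega))).comp ih
  have hmono : Monotone fun k => LinearMap.ker (g τ hπτ a₀ k) := by
    apply monotone_nat_of_le_succ
    intro k x hx
    rw [LinearMap.mem_ker] at hx ⊢
    change T τ hπτ (a₀ + k) (g τ hπτ a₀ k x) = 0
    rw [hx, map_zero]
  obtain ⟨k₁, hk₁⟩ := monotone_stabilizes_iff_noetherian.mpr hn ⟨_, hmono⟩
  refine ⟨a₀ + k₁, fun a ha => ?_⟩
  obtain ⟨k, rfl⟩ := Nat.exists_eq_add_of_le ha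
  rw [injective_iff_map_eq_zero]
  rw [add_assoc]
  intro x hx
  obtain ⟨y, rfl⟩ := hs (k₁ + k) x
  have h1 : y ∈ LinearMap.ker (g τ hπτ a₀ (k₁ + k + 1)) := hx
  have h2 : LinearMap.ker (g τ hπτ a₀ k₁) = LinearMap.ker (g τ hπτ a₀ (k₁ + k + 1)) :=
    hk₁ (k₁ + k + 1) (by omega)
  have h3 : LinearMap.ker (g τ hπτ a₀ k₁) = LinearMap.ker (g τ hπτ a₀ (k₁ + k)) :=
    hk₁ (k₁ + k) (by omega)
  rw [← h2, h3] at h1
  exact h1

include hπτ hδ hker hτδ in
theorem exists_delta_zero [IsNoetherianRing A] (hfin : ∀ n a, Module.Finite A (M n a)) (a₀ : ℕ)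
    (hsurj : ∀ a, a₀ ≤ a → ∀ n, Function.Surjective (τ n a)) (c : ℕ)
    (hinj : ∀ a n, a + c ≤ n → Function.Injective (π n a)) :
    ∃ a₁, ∀ a, a₁ ≤ a → ∀ n (d : D a), δ n a d = 0 := by
  obtain ⟨a₁, h⟩ := exists_T_injective τ hπτ δ hδ hker hτδ hfin a₀ hsurj c hinj
  refine ⟨a₁, fun a ha n d => ?_⟩
  let x : I M π a := ⟨fun n => δ n a d, fun n => hδ n a d⟩
  have hx : T τ hπτ a x = 0 := by
    apply Subtype.ext
    funext n
    rw [T_apply]
    change π n (a + 1) (τ n a (δ n a d)) = 0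
    rw [hτδ, map_zero]
  have hx0 : x = 0 := h a ha (by rw [hx, map_zero])
  exact congrFun (congrArg Subtype.val hx0) n

end Main

end Groth.Agent.Sga2lef.H83.Stab
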