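import Groth.Agent.Sga2lef.H83.Twist
import Groth.Agent.Sga2lef.H83.Stab
import Groth.Agent.Sga2.FBunNum

/-!
# Lifting sections of `G 0 ⊗ L^a` to all levels, for large `a`

Author: helper83
-/

set_option autoImplicit false
universe u

open CategoryTheory CategoryTheory.Limits AlgebraicGeometry Opposite TopologicalSpace

namespace Groth.Agent.Sga2lef.H83.Lift

open Groth.Agent Groth.Agent.FormalB.KQuot Groth.Agent.FormalB.HHLin
  Groth.Agent.Sga2lef.H83.Frame Groth.Agent.Sga2lef.H83.Sys Groth.Agent.Sga2lef.H83.Twist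

variable {X : Scheme.{u}} {𝓘 : X.IdealSheafData} {G : ℕ → X.Modules} {π : ∀ n, G (n + 1) ⟶ G n}
  (hG : IsRegSys 𝓘 G π) {L : X.Modules} {σ : Coh.structureModule X ⟶ L} (hσ : HasFrame 𝓘 σ)
  (hL : PicF.IsInvertible L)

/-- The twisted exact sequence `0 → T^a G n → T^(a+1) G (n+1) → T^(a+1) G 0 → 0`. -/
noncomputable def ST (n a : ℕ) : ShortComplex X.Modules :=
  haveI := (preservesLim hL a).2.2
  (S hG hσ n).map (Tpow L a)

theorem shortExact_ST (n a : ℕ) : (ST hG hσ hL n a).ShortExact :=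
  shortExact_Tpow hL a (shortExact_S hG hσ n)

/-- The morphism of twisted exact sequences. -/
noncomputable def STmap (n a : ℕ) : ST hG hσ hL (n + 1) a ⟶ ST hG hσ hL n a :=
  haveI := (preservesLim hL a).2.2
  (Tpow L a).mapShortComplex.map (Smap hG hσ n)

/-- The sequence `0 → ker (π n) → G (n+1) → G n → 0`. -/
noncomputable def K (π : ∀ n, G (n + 1) ⟶ G n) (n : ℕ) : ShortComplex X.Modules :=
  ShortComplex.mk (kernel.ι (π n)) (π n) (kernel.condition _)

include hG in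
theorem shortExact_K (n : ℕ) : (K π n).ShortExact where
  exact := ShortComplex.exact_of_f_is_kernel _ (kernelIsKernel _)
  mono_f := inferInstanceAs (Mono (kernel.ι (π n)))
  epi_g := hG.epi n

theorem hm_bijective_of_iso {M N : X.Modules} (e : M ≅ N) (p : ℕ) : Function.Bijective (hm e.hom p) := by
  refine Function.bijective_iff_has_inverse.2 ⟨hm e.inv p, fun x => ?_, fun x => ?_⟩
  · rw [← hm_comp, e.hom_inv_id, hm_id]
  · rw [← hm_comp, e.inv_hom_id, hm_id]

include hG hσ hL in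
/-- **Lifting sections.** -/
theorem exists_lift (A : Type u) [CommRing A] [IsNoetherianRing A] [X.Over (Spec (CommRingCat.of A))]
    (hfin : ∀ M : X.Modules, Coh.IsCoh M → ∀ p, Module.Finite A (Coh.HH X M p))
    (hser : ∃ a₀ : ℕ, ∀ a, a₀ ≤ a → Subsingleton (Coh.HH X ((Tpow L a).obj (G 0)) 1))
    (hvan : ∃ c : ℕ, ∀ n, c ≤ n → Subsingleton (Coh.HH X (kernel (π n)) 1)) :
    ∃ a₁ : ℕ, ∀ a, a₁ ≤ a → ∀ s : Coh.HH X ((Tpow L a).obj (G 0)) 0,
      ∃ t : ∀ n, Coh.HH X ((Tpow L a).obj (G n)) 0, t 0 = s ∧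
        ∀ n, hm ((Tpow L a).map (π n)) 0 (t (n + 1)) = t n := by
  obtain ⟨a₀, ha₀⟩ := hser
  obtain ⟨c, hc⟩ := hvan
  have hKv : ∀ a n, a + c ≤ n → Subsingleton (Coh.HH X ((Tpow L a).obj (kernel (π n))) 1) := by
    intro a n h
    obtain ⟨m, rfl⟩ : ∃ m, n = m + a := ⟨n - a, by omega⟩
    obtain ⟨e⟩ := nonempty_ker_Tpow hG hσ hL a m
    exact Sga2.ThickCoh.subsingleton_HH_of_iso e.symm 1 (hc m (by omega))
  have hKT : ∀ a n, haveI := (preservesLim hL a).2.2; ((K π n).map (Tpow L a)).ShortExact := fun a n =>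
    shortExact_Tpow hL a (shortExact_K hG n)
  obtain ⟨a₁, ha₁⟩ := Stab.exists_delta_zero (A := A)
    (M := fun n a => Coh.HH X ((Tpow L a).obj (G n)) 1)
    (π := fun n a => hmap A ((Tpow L a).map (π n)) 1)
    (τ := fun n a => hmap A ((Tpow L a).map (t hG hσ n)) 1)
    (hπτ := fun n a x => by
      have h1 : (Tpow L a).map (t hG hσ (n + 1)) ≫ (Tpow L (a + 1)).map (π (n + 1)) =
          (Tpow L a).map (π n) ≫ (Tpow L a).map (t hG hσ n) := by
        change (Tpow L a).map (t hG hσ (n + 1)) ≫ (Tpow L a).map ((DCoh.tensorRightMod L).map (π (n + 1))) = _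
        rw [← Functor.map_comp, ← Functor.map_comp, t_map_π]
      change hm ((Tpow L (a + 1)).map (π (n + 1))) 1 (hm ((Tpow L a).map (t hG hσ (n + 1))) 1 x) =
        hm ((Tpow L a).map (t hG hσ n)) 1 (hm ((Tpow L a).map (π n)) 1 x)
      exact (hm_comp ((Tpow L a).map (t hG hσ (n + 1))) ((Tpow L (a + 1)).map (π (n + 1))) 1 x).symm.trans
        ((congrArg (fun φ => hm φ 1 x) h1).trans (hm_comp _ _ 1 x)))
    (D := fun a => Coh.HH X ((Tpow L (a + 1)).obj (G 0)) 0)
    (δ := fun n a => hd (shortExact_ST hG hσ hL n a) 0)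
    (hδ := fun n a d => by
      refine (hd_naturality (shortExact_ST hG hσ hL (n + 1) a) (shortExact_ST hG hσ hL n a)
        (STmap hG hσ hL n a) 0 d).trans ?_
      congr 1
      have h1 : (STmap hG hσ hL n a).τ₃ = 𝟙 _ := (Tpow L a).map_id _
      rw [h1]
      exact hm_id _ 0 d)
    (hker := fun n a x hx => exact₁ (shortExact_ST hG hσ hL n a) 0 x hx)
    (hτδ := fun n a d => hm_f_hd (shortExact_ST hG hσ hL n a) 0 d)
    (hfin := fun n a => hfin _ (isCoh_Tpow hL a (hG.coh n)) 1) (a₀ := a₀)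
    (hsurj := fun a ha n x => by
      have := ha₀ (a + 1) (by omega)
      exact exact₂ (shortExact_ST hG hσ hL n a) 1 x
        (Subsingleton.elim (α := Coh.HH X ((Tpow L (a + 1)).obj (G 0)) 1) _ _)) (c := c)
    (hinj := fun a n h => by
      have := hKv a n h
      rw [injective_iff_map_eq_zero]
      intro x hx
      obtain ⟨y, rfl⟩ := exact₂ (hKT a n) 1 x hx
      have h0 : y = 0 := Subsingleton.elim (α := Coh.HH X ((Tpow L a).obj (kernel (π n))) 1) _ _
      rw [h0]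
      exact map_zero _)
  refine ⟨a₁ + 1, fun a ha s => ?_⟩
  obtain ⟨a, rfl⟩ : ∃ b, a = b + 1 := ⟨a - 1, by omega⟩
  refine Sga2.FBunNum.exists_compatible (S := fun n => Coh.HH X ((Tpow L (a + 1)).obj (G n)) 0)
    (fun n => hm ((Tpow L (a + 1)).map (π n)) 0)
    (fun n => hm ((Tpow L (a + 1)).map (toZero π n)) 0) ?_ ?_ (a + 1 + c) ?_ 1 ?_ s
  · intro x
    change hm ((Tpow L (a + 1)).map (𝟙 _)) 0 x = x
    rw [(Tpow L (a + 1)).map_id, hm_id]
  · intro n x
    change hm ((Tpow L (a + 1)).map (π n ≫ toZero π n)) 0 x = _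
    rw [(Tpow L (a + 1)).map_comp, hm_comp]
  · intro n hn x
    have := hKv (a + 1) n hn
    exact exact₃ (hKT (a + 1) n) 0 x
      (Subsingleton.elim (α := Coh.HH X ((Tpow L (a + 1)).obj (kernel (π n))) 1) _ _)
  · intro n hn x
    obtain ⟨n, rfl⟩ : ∃ b, n = b + 1 := ⟨n - 1, by omega⟩
    exact exact₃ (shortExact_ST hG hσ hL n a) 0 x (ha₁ a (by omega) n x)

end Groth.Agent.Sga2lef.H83.Lift
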