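import Groth.Agent.Sga2lef.H83.Alg
import Groth.Agent.Sga2lef.H96.ModSysRec
import Groth.Agent.Sga2lef.H96.ModSysFormal
import Groth.Agent.Sga2lef.H78.DualBasis
import Groth.Prelude.Def_LefX

/-!
# Levelwise finite locally free systems are regular systems

Author: helper83
-/

set_option autoImplicit false
universe u

open CategoryTheory CategoryTheory.Limits AlgebraicGeometry Opposite TopologicalSpace

namespace Groth.Agent.Sga2lef.H83.OfMod

open Groth.Agent Groth.Agent.Fdesc.LocGen Groth.Agent.FormalB.KQuot Groth.Agent.FormalB.TrKQuot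
  Groth.Agent.Sga2lef.H83.Frame Groth.Agent.Sga2lef.H83.Sys Groth.Agent.Sga2lef.H83.Ker
  Groth.Agent.Sga2lef.H96.ModSysPush

variable {X : Scheme.{u}} {𝓘 : X.IdealSheafData} {L : X.Modules} {σ : Coh.structureModule X ⟶ L}

/-- In a module killed by `𝓘^(n+2)` and locally free over `O/𝓘^(n+2)`, the elements killed by the equation `f` are
divisible by `f^(n+1)`. -/
theorem exists_of_smul_eq_zero {n : ℕ} {G : X.Modules} (hG : ClSub.KilledByIdeal (𝓘 ^ (n + 2)) G)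
    (hlf : FlatMod.IsFinLocFree ((Scheme.Modules.pullback (𝓘 ^ (n + 2)).subschemeι).obj G))
    {V : X.affineOpens} {e : Γ(L, V.1)} {f : Γ(X, V.1)} (h : IsFrame 𝓘 σ V e f) {g : Γ(G, V.1)}
    (hg : f • g = 0) : ∃ g', g = f ^ (n + 1) • g' := by
  obtain ⟨r, a, b, ha, hb⟩ := H78.DualBasis.exists_dualBasis_sec (𝓘 ^ (n + 2)) hG hlf V.2
  have hI : (𝓘 ^ (n + 2)).ideal V = Ideal.span {f ^ (n + 2)} := by
    rw [Scheme.IdealSheafData.ideal_pow, Pi.pow_apply, h.ideal_eq, Ideal.span_singleton_pow]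
  choose c hc using fun j => (𝓘 ^ (n + 2)).subschemeι_app_surjective V (a j g)
  have h1 : ∀ j, ∃ d : Γ(X, V.1), c j = f ^ (n + 1) * d := by
    intro j
    have h2 : f * c j ∈ (𝓘 ^ (n + 2)).ideal V := by
      rw [← Scheme.IdealSheafData.ker_subschemeι_app, RingHom.mem_ker]
      change (𝓘 ^ (n + 2)).subschemeι.app V.1 (f * c j) = 0
      rw [map_mul, hc j, ← ha, hg, map_zero]
    rw [hI, Ideal.mem_span_singleton'] at h2
    obtain ⟨d, hd⟩ := h2
    refine ⟨d, ?_⟩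
    have h3 : f * (c j - f ^ (n + 1) * d) = 0 := by
      rw [mul_sub, ← hd]
      ring
    rw [← sub_eq_zero]
    exact (mem_nonZeroDivisors_iff.1 h.nonZeroDivisor).1 _ h3
  choose d hd using h1
  refine ⟨∑ j, d j • b j, ?_⟩
  rw [hb g c hc, Finset.smul_sum]
  exact Finset.sum_congr rfl fun j _ => by rw [hd j, mul_smul]

/-- The regular system of a levelwise finite locally free system. -/
theorem isRegSys [IsLocallyNoetherian X] (hσ : HasFrame 𝓘 σ) (𝔐 : FSch.ModSys (FSch.completionAlong X 𝓘))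
    (h𝔐 : LefX.LevelwiseFinLocFree 𝔐) : IsRegSys 𝓘 (fun n => pm 𝔐 n) (ptr 𝔐) where
  coh n := by
    have : IsLocallyNoetherian (𝓘 ^ (n + 1)).subscheme :=
      LocallyOfFiniteType.isLocallyNoetherian (𝓘 ^ (n + 1)).subschemeι
    exact H96.ModSysFormal.isCoh_pm 𝔐 n (PerfA.CohSerre.isCoh_of_isFinLocFree (h𝔐 n))
  kq n := isKQuot_ptr 𝔐 n
  reg n := by
    refine reg_of_frame hσ _ fun V e f hf m hm => ?_
    have h1 : FlatMod.IsFinLocFree ((Scheme.Modules.pullback (𝓘 ^ (n + 2)).subschemeι).obj (pm 𝔐 (n + 1))) := by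
      have := isIso_counit (𝓘 ^ (n + 2)) (𝔐.F (n + 1))
      exact Dcoh.FinLocFree.isFinLocFree_of_iso (asIso ((Scheme.Modules.pullbackPushforwardAdjunction
        (𝓘 ^ (n + 2)).subschemeι).counit.app (𝔐.F (n + 1)))).symm (h𝔐 (n + 1))
    obtain ⟨g', rfl⟩ := exists_of_smul_eq_zero (killed_pm 𝔐 (n + 1)) h1 hf hm
    rw [Scheme.Modules.Hom.app_smul]
    refine killed_pm 𝔐 n V _ ?_ _
    rw [Scheme.IdealSheafData.ideal_pow, Pi.pow_apply, hf.ideal_eq, Ideal.span_singleton_pow]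
    exact Ideal.mem_span_singleton_self _

/-- The vanishing for `pm 𝔐 0`. -/
theorem van_zero {P : X.Modules} (hvV : ∀ E : 𝓘.subscheme.Modules, FlatMod.IsFinLocFree E →
      Alg.Van P ((Scheme.Modules.pushforward 𝓘.subschemeι).obj E))
    (𝔐 : FSch.ModSys (FSch.completionAlong X 𝓘)) (h𝔐 : LefX.LevelwiseFinLocFree 𝔐) :
    Alg.Van P (pm 𝔐 0) := by
  have key : ∀ J : X.IdealSheafData, J = 𝓘 → ∀ E : J.subscheme.Modules, FlatMod.IsFinLocFree E →
      Alg.Van P ((Scheme.Modules.pushforward J.subschemeι).obj E) := by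
    rintro _ rfl
    exact hvV
  exact key (𝓘 ^ (0 + 1)) (by rw [zero_add, pow_one]) (𝔐.F 0) (h𝔐 0)

/-- Levels of an isomorphism of systems. -/
theorem nonempty_iso_level {𝔛 : FSch.Sys.{u}} {𝔐 𝔑 : FSch.ModSys 𝔛} (e : Nonempty (𝔐 ≅ 𝔑)) (n : ℕ) :
    Nonempty (𝔐.F n ≅ 𝔑.F n) := by
  obtain ⟨e⟩ := e
  refine ⟨⟨e.hom.1 n, e.inv.1 n, ?_, ?_⟩⟩
  · exact congrFun (congrArg FSch.ModSys.Hom.app e.hom_inv_id) n
  · exact congrFun (congrArg FSch.ModSys.Hom.app e.inv_hom_id) n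

end Groth.Agent.Sga2lef.H83.OfMod
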