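import Groth.Agent.Sga2lef.H83.BSys
import Groth.Agent.Sga2lef.H83.Lift
import Groth.Agent.Sga67.TensorOps
import Groth.Agent.CycB.DegCurve
import Groth.Agent.Dcoh.FinLocFree
import Groth.Agent.Dcoh.TensRestr
import Groth.Agent.Sga2.LefPow644

/-!
# Presentations of regular systems by `(P^a)^r`

* `Dm P r a = O^r ⊗ P^a`.
* `exists_epi_ge`: every coherent module is a quotient of `Dm P r a` with `a` arbitrarily large.
* `exists_lift_hom`: lifting of morphisms `Dm P r a ⟶ G 0` to compatible families.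
* `epi_of_epi_zero`: Nakayama.
* `stage`: for a regular system with `H^1 (ker (π n)) = 0`, `n ≫ 0`, compatible epimorphisms `D / 𝓘^(n+1) D ⟶ G n`.

Author: helper83
-/

set_option autoImplicit false
universe u

open CategoryTheory CategoryTheory.Limits AlgebraicGeometry Opposite TopologicalSpace

namespace Groth.Agent.Sga2lef.H83.Pres

open Groth.Agent Groth.Agent.Fdesc.LocGen Groth.Agent.FormalB.KQuot Groth.Agent.FormalB.TrKQuot
  Groth.Agent.FormalB.HHLin Groth.Agent.Sga2lef.H83.Frame Groth.Agent.Sga2lef.H83.Sys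
  Groth.Agent.Sga2lef.H83.Twist Groth.Agent.Sga2lef.H83.Ker Groth.Agent.Sga2lef.H83.BSys
  Groth.Agent.Ega2 Groth.Agent.Ega2.TensPow

variable {X : Scheme.{u}}

/-- `O^r ⊗ P^a`. -/
noncomputable def Dm (P : X.Modules) (r a : ℕ) : X.Modules :=
  CohB1.tensorMod (FlatMod.freeMod X r) (CohB1.tensorPow P a)

theorem isFinLocFree_freeMod (r : ℕ) : FlatMod.IsFinLocFree (FlatMod.freeMod X r) :=
  Dcoh.FinLocFree.isFinLocFree_freeMod X r

theorem isFinLocFree_pow {P : X.Modules} (hP : PicF.IsInvertible P) (a : ℕ) :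
    FlatMod.IsFinLocFree (CohB1.tensorPow P a) :=
  CycB.DegCurve.isFinLocFree_of_isInvertible (isInvertible_tensorPow hP a)

theorem isFinLocFree_Dm {P : X.Modules} (hP : PicF.IsInvertible P) (r a : ℕ) :
    FlatMod.IsFinLocFree (Dm P r a) :=
  Sga67.LocBasis.isFinLocFree_tensorMod (isFinLocFree_freeMod r) (isFinLocFree_pow hP a)

theorem isCoh_Dm {P : X.Modules} (hP : PicF.IsInvertible P) (r a : ℕ) : Coh.IsCoh (Dm P r a) :=
  PerfA.CohSerre.isCoh_of_isFinLocFree (isFinLocFree_Dm hP r a)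

theorem sMul_eq {L B : X.Modules} (σ : Coh.structureModule X ⟶ L) :
    (sMul σ).app B = (Tens.runit B).inv ≫ Sga67.ExtSheaf.tmap B σ := by
  apply Scheme.Modules.hom_ext
  intro U
  ext m
  change ((sMul σ).app B).app U m = ((DCoh.tensorBi.obj B).map σ).app U ((Tens.runit B).inv.app U m)
  rw [sMul_app, Ega2.Tens.runit_inv_app, Dcoh.TensRestr.tensorBi_obj_map_tmul]
  rfl

theorem reg_of_isFinLocFree {L B : X.Modules} (σ : Coh.structureModule X ⟶ L) [Mono σ]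
    (hB : FlatMod.IsFinLocFree B) : Reg σ B := by
  have h1 := Sga67.TensorOps.mono_tmap hB σ
  unfold Reg
  rw [sMul_eq]
  exact @mono_comp _ _ _ _ _ (Tens.runit B).inv inferInstance _ h1

/-- The section is a monomorphism. -/
theorem mono_of_hasFrame {𝓘 : X.IdealSheafData} {L : X.Modules} {σ : Coh.structureModule X ⟶ L}
    (hσ : HasFrame 𝓘 σ) : Mono σ := by
  apply Preadditive.mono_of_cancel_zero
  intro K k hk
  apply hom_eq_zero_of_frame hσ
  intro V e f hf m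
  have h1 : σ.app V.1 (k.app V.1 m) = 0 := congr(($hk).app V.1 m)
  let r : Γ(X, V.1) := k.app V.1 m
  have h2 : σ.app V.1 (r • one V.1) = (r * f) • e := by
    rw [Scheme.Modules.Hom.app_smul, mul_smul, ← hf.eq]
    rfl
  have h3 : r • one V.1 = k.app V.1 m := by
    change r * (1 : Γ(X, V.1)) = r
    exact mul_one r
  rw [h3, h1] at h2
  have h4 : r * f = 0 := by
    apply (hf.gen V.1 le_rfl).1
    change (r * f) • res L le_rfl e = (0 : Γ(X, V.1)) • res L le_rfl e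
    rw [res_refl, ← h2, zero_smul]
  exact (mem_nonZeroDivisors_iff.1 hf.nonZeroDivisor).2 r h4

/-! ### Existence of presentations -/

theorem exists_free_iso (X : Scheme.{u}) (κ : Type u) [Finite κ] :
    ∃ r, Nonempty ((SheafOfModules.free κ : X.Modules) ≅ FlatMod.freeMod X r) := by
  obtain ⟨r, ⟨e⟩⟩ := Finite.exists_equiv_fin κ
  have h : (∐ fun _ : κ => Coh.structureModule X) ≅ (∐ fun _ : Fin r => Coh.structureModule X) :=
    Sigma.whiskerEquiv (f := fun _ : κ => Coh.structureModule X) (g := fun _ : Fin r => Coh.structureModule X) e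
      (fun _ => Iso.refl _)
  exact ⟨r, ⟨h⟩⟩

theorem exists_epi_ge {L P : X.Modules} (hLP : ClSub.IsInverseOf L P) (hamp : CohB1.IsAmple L) {M : X.Modules}
    (hM : Coh.IsCoh M) (b : ℕ) : ∃ a r, b ≤ a ∧ ∃ p : Dm P r a ⟶ M, Epi p := by
  have hLb : PicF.IsInvertible (CohB1.tensorPow L b) := isInvertible_tensorPow hamp.1 b
  obtain ⟨n, κ, _, π, hπ⟩ := Sga2.LefAmple389.exists_epi hLP hamp (Ega2.GlobGenCrit.isCoh_tensor hM hLb)
  obtain ⟨r, ⟨e⟩⟩ := exists_free_iso X κ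
  obtain ⟨eb⟩ := Sga2.LefAmple389.isInverseOf_pow hLP b
  let Φ := DCoh.tensorRightMod (CohB1.tensorPow P b)
  let θ : Φ.obj (CohB1.tensorMod M (CohB1.tensorPow L b)) ≅ M := (PerfB.TensInv.tensorInvIso eb).app M
  let τ : Dm P r (n + b) ≅ Φ.obj (CohB1.tensorMod (SheafOfModules.free κ : X.Modules) (CohB1.tensorPow P n)) :=
    Tens.mapTIso e.symm (powAdd P n b).symm ≪≫ (Tens.assoc _ _ _).symm
  have h1 : Epi (Φ.map π) := inferInstance
  have h2 : Epi (Φ.map π ≫ θ.hom) := epi_comp _ _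
  exact ⟨n + b, r, Nat.le_add_left _ _, τ.hom ≫ Φ.map π ≫ θ.hom, @epi_comp _ _ _ _ _ τ.hom inferInstance _ h2⟩

theorem isEquivalence_Tpow {L P : X.Modules} (hLP : ClSub.IsInverseOf L P) (a : ℕ) :
    (Tpow L a).IsEquivalence := by
  induction a with
  | zero => exact inferInstanceAs (𝟭 X.Modules).IsEquivalence
  | succ a ih =>
    obtain ⟨e⟩ := hLP
    have := Sga2.LefPow644.isEquivalence_of_inv e
    exact inferInstanceAs (DCoh.tensorRightMod L ⋙ Tpow L a).IsEquivalence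

theorem isInverseOf_symm {L P : X.Modules} (hLP : ClSub.IsInverseOf L P) : ClSub.IsInverseOf P L := by
  obtain ⟨e⟩ := hLP
  exact ⟨Tens.swap _ _ ≪≫ e⟩

theorem nonempty_Tpow_Dm {L P : X.Modules} (hLP : ClSub.IsInverseOf L P) (r a : ℕ) :
    Nonempty ((Tpow L a).obj (Dm P r a) ≅ FlatMod.freeMod X r) := by
  obtain ⟨e1⟩ := nonempty_iso_Tpow L a (Dm P r a)
  obtain ⟨e2⟩ := Sga2.LefAmple389.isInverseOf_pow (isInverseOf_symm hLP) a
  exact ⟨e1 ≪≫ (PerfB.TensInv.tensorInvIso e2).app (FlatMod.freeMod X r)⟩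

theorem secEquiv_hm {M N : X.Modules} (φ : M ⟶ N) (x : Coh.HH X M 0) :
    Ega3B.SectExact.secEquiv N (hm φ 0 x) = φ.app ⊤ (Ega3B.SectExact.secEquiv M x) :=
  Ega3B.SectExact.secEquiv_hmap φ x

/-- Lifting morphisms from lifting sections. -/
theorem exists_lift_hom {F : X.Modules ⥤ X.Modules} [F.IsEquivalence] {D : X.Modules} {r : ℕ}
    (e : F.obj D ≅ FlatMod.freeMod X r) {G : ℕ → X.Modules} {π : ∀ n, G (n + 1) ⟶ G n}
    (h : ∀ s : Coh.HH X (F.obj (G 0)) 0, ∃ t : ∀ n, Coh.HH X (F.obj (G n)) 0, t 0 = s ∧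
      ∀ n, hm (F.map (π n)) 0 (t (n + 1)) = t n)
    (φ₀ : D ⟶ G 0) : ∃ φ : ∀ n, D ⟶ G n, φ 0 = φ₀ ∧ ∀ n, φ (n + 1) ≫ π n = φ n := by
  choose t ht0 ht using fun k : Fin r => h ((Ega3B.SectExact.secEquiv (F.obj (G 0))).symm
    ((Sigma.ι (fun _ : Fin r => Coh.structureModule X) k ≫ e.inv ≫ F.map φ₀).app ⊤ (Dcoh.Restrict.one ⊤)))
  let ψ : ∀ n, FlatMod.freeMod X r ⟶ F.obj (G n) := fun n =>
    Sigma.desc fun k => Dcoh.Restrict.unitHom (Ega3B.SectExact.secEquiv _ (t k n))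
  have hψ : ∀ n, ψ (n + 1) ≫ F.map (π n) = ψ n := by
    intro n
    refine Sigma.hom_ext _ _ fun k => ?_
    rw [Sigma.ι_desc_assoc, Sigma.ι_desc, Dcoh.Restrict.unitHom_comp, ← secEquiv_hm, ht]
  have hψ0 : ψ 0 = e.inv ≫ F.map φ₀ := by
    refine Sigma.hom_ext _ _ fun k => ?_
    rw [Sigma.ι_desc, ht0, AddEquiv.apply_symm_apply]
    apply Dcoh.Restrict.unit_hom_ext
    rw [Dcoh.Restrict.unitHom_app_one]
  refine ⟨fun n => F.preimage (e.hom ≫ ψ n), ?_, fun n => ?_⟩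
  · apply F.map_injective
    rw [F.map_preimage, hψ0, e.hom_inv_id_assoc]
  · apply F.map_injective
    rw [F.map_comp, F.map_preimage, F.map_preimage, Category.assoc, hψ]

/-- Nakayama for regular systems. -/
theorem epi_of_epi_zero {𝓘 : X.IdealSheafData} {L : X.Modules} {σ : Coh.structureModule X ⟶ L}
    (hσ : HasFrame 𝓘 σ) {G : ℕ → X.Modules} {π : ∀ n, G (n + 1) ⟶ G n} (hG : IsRegSys 𝓘 G π) {D : X.Modules}
    (hD : Coh.IsQCoh D) (φ : ∀ n, D ⟶ G n) (hφ : ∀ n, φ (n + 1) ≫ π n = φ n) (h0 : Epi (φ 0)) :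
    ∀ n, Epi (φ n) := by
  intro n
  induction n with
  | zero => exact h0
  | succ n ih =>
    have h1 : D.IsQuasicoherent := hD
    have h2 : (G n).IsQuasicoherent := (hG.coh n).1
    refine VarietyB.ExactLoc.epi_of_stalk _ fun x => ?_
    intro m
    obtain ⟨U, hxU, s, rfl⟩ := (G (n + 1)).presheaf.exists_germ_eq m
    obtain ⟨V, e, f, hxV, hV, hf⟩ := hσ U x hxU
    have key : ∀ g : Γ(G (n + 1), V.1), ∃ (d : Γ(D, V.1)) (g' : Γ(G (n + 1), V.1)),
        g = (φ (n + 1)).app V.1 d + f ^ (n + 1) • g' := by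
      intro g
      obtain ⟨d, hd⟩ := FormalB.QcSect.surjective_app_of_epi (φ n) V.2 ((π n).app V.1 g)
      have h3 : (π n).app V.1 (g - (φ (n + 1)).app V.1 d) = 0 := by
        rw [map_sub, ← hd, ← hφ n]
        exact sub_self _
      obtain ⟨g', hg'⟩ := (hG.app_eq_zero_iff hf n _).1 h3
      exact ⟨d, g', by rw [← hg']; abel⟩
    obtain ⟨d, g', h4⟩ := key (res _ hV s)
    obtain ⟨d', g'', h5⟩ := key g'
    refine ⟨D.presheaf.germ V.1 x hxV (d + f ^ (n + 1) • d'), ?_⟩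
    rw [CycB.StalkExact.stalkLin_germ, map_add, Scheme.Modules.Hom.app_smul]
    have h6 : (φ (n + 1)).app V.1 d + f ^ (n + 1) • (φ (n + 1)).app V.1 d' = res _ hV s := by
      rw [h4, h5, smul_add, ← mul_smul, ← pow_add]
      have h7 : f ^ (n + 1 + (n + 1)) • g'' = 0 := by
        rw [show n + 1 + (n + 1) = n + (n + 1 + 1) by ring, pow_add, mul_smul,
          hG.pow_smul_eq_zero hf (n + 1), smul_zero]
      rw [h7, add_zero]
    rw [h6]
    exact VarietyB.ExactLoc.germ_res _ hV hxV s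

/-- Compatible epimorphisms `D ⟶ G n` give an epimorphism of systems. -/
theorem exists_sysMap {𝓘 : X.IdealSheafData} {G : ℕ → X.Modules} {π : ∀ n, G (n + 1) ⟶ G n}
    (hG : IsRegSys 𝓘 G π) {D : X.Modules} (hD : Coh.IsCoh D) (φ : ∀ n, D ⟶ G n)
    (hφ : ∀ n, φ (n + 1) ≫ π n = φ n) (he : ∀ n, Epi (φ n)) :
    ∃ ψ : ∀ n, Bn 𝓘 D n ⟶ G n, (∀ n, pB 𝓘 D n ≫ ψ n = φ n) ∧
      (∀ n, ψ (n + 1) ≫ π n = πB 𝓘 hD n ≫ ψ n) ∧ ∀ n, Epi (ψ n) := by
  choose ψ hψ using fun n => (isKQuot_pB 𝓘 hD n).desc (φ n) (hG.killed n)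
  refine ⟨ψ, hψ, fun n => ?_, fun n => ?_⟩
  · have := (isKQuot_pB 𝓘 hD (n + 1)).epi
    rw [← cancel_epi (pB 𝓘 D (n + 1)), ← Category.assoc, hψ, hφ, pB_πB_assoc, hψ]
  · have := he n
    rw [← hψ n] at this
    exact epi_of_epi (pB 𝓘 D n) (ψ n)

/-- **Presentation of a regular system.** -/
theorem stage {𝓘 : X.IdealSheafData} {G : ℕ → X.Modules} {π : ∀ n, G (n + 1) ⟶ G n}
    (hG : IsRegSys 𝓘 G π) {L P : X.Modules} {σ : Coh.structureModule X ⟶ L} (hσ : HasFrame 𝓘 σ)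
    (hLP : ClSub.IsInverseOf L P) (hamp : CohB1.IsAmple L) (hP : PicF.IsInvertible P)
    (A : Type u) [CommRing A] [IsNoetherianRing A] [X.Over (Spec (CommRingCat.of A))]
    (hfin : ∀ M : X.Modules, Coh.IsCoh M → ∀ p, Module.Finite A (Coh.HH X M p))
    (hser : ∀ M : X.Modules, Coh.IsCoh M → ∃ a₀ : ℕ, ∀ a, a₀ ≤ a → Subsingleton (Coh.HH X ((Tpow L a).obj M) 1))
    (hvan : ∃ c : ℕ, ∀ n, c ≤ n → Subsingleton (Coh.HH X (kernel (π n)) 1)) :
    ∃ (a r : ℕ) (ψ : ∀ n, Bn 𝓘 (Dm P r a) n ⟶ G n),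
      (∀ n, ψ (n + 1) ≫ π n = πB 𝓘 (isCoh_Dm hP r a) n ≫ ψ n) ∧ ∀ n, Epi (ψ n) := by
  obtain ⟨a₁, ha₁⟩ := Lift.exists_lift hG hσ hamp.1 A hfin (hser _ (hG.coh 0)) hvan
  obtain ⟨a, r, ha, p, hp⟩ := exists_epi_ge hLP hamp (hG.coh 0) a₁
  have := isEquivalence_Tpow hLP a
  obtain ⟨e⟩ := nonempty_Tpow_Dm hLP r a
  obtain ⟨φ, hφ0, hφ⟩ := exists_lift_hom e (ha₁ a ha) p
  have hD := isCoh_Dm hP r a
  have he := epi_of_epi_zero hσ hG hD.1 φ hφ (by rw [hφ0]; exact hp)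
  obtain ⟨ψ, -, hψ, hψ'⟩ := exists_sysMap hG hD φ hφ he
  exact ⟨a, r, ψ, hψ, hψ'⟩

end Groth.Agent.Sga2lef.H83.Pres
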