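import Groth.Agent.Sga2lef.H83.Frame
import Groth.Agent.FormalB.TrKQuot
import Groth.Agent.PerfB.TensInv

/-!
# Systems of modules along an effective Cartier divisor on which the equation is regular

`IsRegSys 𝓘 G π`: coherent modules `G n`, `π n : G (n+1) ⟶ G n` is the quotient by `𝓘^(n+1)`, and a section of
`G (n+1)` killed by `𝓘` dies in `G n`.

For `s : 𝟭 ⟶ T = - ⊗ L` (multiplication by the section with zero scheme `V(𝓘)`):
* `t n : G n ⟶ T (G (n+1))` with `π n ≫ t n = s`, `shortExact_t`: `0 → G n → T G (n+1) → T G 0 → 0`.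
* `kerIso`: `ker (π n) ≅ T (ker (π (n+1)))`.

Author: helper83
-/

set_option autoImplicit false
universe u

open CategoryTheory CategoryTheory.Limits AlgebraicGeometry Opposite TopologicalSpace

namespace Groth.Agent.Sga2lef.H83.Sys

open Groth.Agent Groth.Agent.Fdesc.LocGen Groth.Agent.FormalB.KQuot Groth.Agent.FormalB.TrKQuot
  Groth.Agent.Sga2lef.H83.Frame

variable {X : Scheme.{u}}

/-- A coherent `𝓘`-adic system on which a local equation of `𝓘` is regular. -/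
structure IsRegSys (𝓘 : X.IdealSheafData) (G : ℕ → X.Modules) (π : ∀ n, G (n + 1) ⟶ G n) : Prop where
  coh : ∀ n, Coh.IsCoh (G n)
  kq : ∀ n, IsKQuot (𝓘 ^ (n + 1)) (π n)
  reg : ∀ n (V : X.affineOpens) (g : Γ(G (n + 1), V.1)), (∀ a ∈ 𝓘.ideal V, a • g = 0) →
    (π n).app V.1 g = 0

/-- The composite `G n ⟶ G 0`. -/
noncomputable def toZero {G : ℕ → X.Modules} (π : ∀ n, G (n + 1) ⟶ G n) : ∀ n, G n ⟶ G 0
  | 0 => 𝟙 _
  | n + 1 => π n ≫ toZero π n

theorem IsKQuot.comp {K K' : X.IdealSheafData} (h : K ≤ K') {M N Q : X.Modules} {p : M ⟶ N} {q : N ⟶ Q}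
    (hp : IsKQuot K p) (hq : IsKQuot K' q) : IsKQuot K' (p ≫ q) := by
  have := hp.epi
  have := hq.epi
  refine ⟨epi_comp p q, hq.killed, fun {Z} φ hφ => ?_⟩
  obtain ⟨ψ, hψ⟩ := hp.desc φ (killedByIdeal_of_le h hφ)
  obtain ⟨χ, hχ⟩ := hq.desc ψ hφ
  exact ⟨χ, by rw [Category.assoc, hχ, hψ]⟩

theorem pow_le_self (𝓘 : X.IdealSheafData) (n : ℕ) : 𝓘 ^ (n + 1) ≤ 𝓘 := by
  rw [pow_succ]
  exact mul_le_of_le_one_left' le_top

namespace IsRegSys

variable {𝓘 : X.IdealSheafData} {G : ℕ → X.Modules} {π : ∀ n, G (n + 1) ⟶ G n} (hG : IsRegSys 𝓘 G π)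
include hG

theorem killed (n : ℕ) : ClSub.KilledByIdeal (𝓘 ^ (n + 1)) (G n) := (hG.kq n).killed

theorem killed_zero : ClSub.KilledByIdeal 𝓘 (G 0) := by
  have := hG.killed 0
  rwa [zero_add, pow_one] at this

theorem kq_toZero (n : ℕ) : IsKQuot 𝓘 (toZero π n) := by
  induction n with
  | zero => exact IsKQuot.id hG.killed_zero
  | succ n ih => exact IsKQuot.comp (pow_le_self 𝓘 n) (hG.kq n) ih

theorem epi (n : ℕ) : Epi (π n) := (hG.kq n).epi

theorem epi_toZero (n : ℕ) : Epi (toZero π n) := (hG.kq_toZero n).epi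

theorem app_surjective (n : ℕ) (V : X.affineOpens) : Function.Surjective ((π n).app V.1) :=
  IsKQuot.app_surjective (hG.kq n) (hG.coh (n + 1)).1 V.2

theorem app_toZero_surjective (n : ℕ) (V : X.affineOpens) : Function.Surjective ((toZero π n).app V.1) :=
  IsKQuot.app_surjective (hG.kq_toZero n) (hG.coh n).1 V.2

variable {L : X.Modules} {σ : Coh.structureModule X ⟶ L} {V : X.affineOpens} {e : Γ(L, V.1)} {f : Γ(X, V.1)}
  (h : IsFrame 𝓘 σ V e f)
include h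

theorem app_eq_zero_iff (n : ℕ) (g : Γ(G (n + 1), V.1)) :
    (π n).app V.1 g = 0 ↔ ∃ g', g = f ^ (n + 1) • g' := by
  rw [IsKQuot.app_eq_zero_iff (hG.kq n) (hG.coh (n + 1)).1, h.mem_ideal_smul_iff]

theorem toZero_app_eq_zero_iff (n : ℕ) (g : Γ(G n, V.1)) :
    (toZero π n).app V.1 g = 0 ↔ ∃ g', g = f • g' := by
  have h1 := h.mem_ideal_smul_iff (G := G n) 1 g
  rw [pow_one, pow_one] at h1
  rw [IsKQuot.app_eq_zero_iff (hG.kq_toZero n) (hG.coh n).1, h1]

theorem pow_smul_eq_zero (n : ℕ) (g : Γ(G n, V.1)) : f ^ (n + 1) • g = 0 := by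
  refine hG.killed n V _ ?_ g
  rw [Scheme.IdealSheafData.ideal_pow, Pi.pow_apply, h.ideal_eq, Ideal.span_singleton_pow]
  exact Ideal.mem_span_singleton_self _

theorem smul_eq_zero_iff (n : ℕ) (g : Γ(G (n + 1), V.1)) : f • g = 0 ↔ (π n).app V.1 g = 0 := by
  constructor
  · intro h1
    exact hG.reg n V g ((h.smul_eq_zero_iff g).1 h1)
  · intro h1
    obtain ⟨g', rfl⟩ := (hG.app_eq_zero_iff h n g).1 h1
    rw [← mul_smul, ← pow_succ']
    exact hG.pow_smul_eq_zero h (n + 1) g'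

end IsRegSys

/-! ### The maps `t n : G n ⟶ T (G (n+1))` -/

section T

variable {𝓘 : X.IdealSheafData} {G : ℕ → X.Modules} {π : ∀ n, G (n + 1) ⟶ G n} (hG : IsRegSys 𝓘 G π)
  {L : X.Modules} {σ : Coh.structureModule X ⟶ L} (hσ : HasFrame 𝓘 σ)

/-- A section vanishing over small frames vanishes. -/
theorem eq_zero_of_frame (hσ : HasFrame 𝓘 σ) {M : X.Modules} {U : X.Opens} (s : Γ(M, U))
    (h : ∀ (V : X.affineOpens) (hV : V.1 ≤ U) (e : Γ(L, V.1)) (f : Γ(X, V.1)), IsFrame 𝓘 σ V e f →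
      res M hV s = 0) : s = 0 := by
  choose V e f hx hV hf using hσ U
  refine res_ext M (ι := U) (fun x => (V x.1 x.2).1) (fun x => hV x.1 x.2) ?_ ?_
  · intro x hx'
    exact Opens.mem_iSup.2 ⟨⟨x, hx'⟩, hx x hx'⟩
  · intro x
    rw [h _ (hV x.1 x.2) _ _ (hf x.1 x.2), map_zero]

include hσ in
theorem hom_eq_zero_of_frame {M N : X.Modules} (φ : M ⟶ N)
    (h : ∀ (V : X.affineOpens) (e : Γ(L, V.1)) (f : Γ(X, V.1)), IsFrame 𝓘 σ V e f →
      ∀ m : Γ(M, V.1), φ.app V.1 m = 0) : φ = 0 := by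
  apply Scheme.Modules.hom_ext
  intro U
  ext m
  change φ.app U m = 0
  refine eq_zero_of_frame hσ _ fun V hV e f hf => ?_
  rw [← app_res]
  exact h V e f hf _

include hG hσ in
theorem kernel_π_sMul (n : ℕ) : kernel.ι (π n) ≫ (sMul σ).app (G (n + 1)) = 0 := by
  apply hom_eq_zero_of_frame hσ
  intro V e f hf m
  change ((sMul σ).app (G (n + 1))).app V.1 ((kernel.ι (π n)).app V.1 m) = 0
  rw [hf.sMul_app_eq_zero_iff, hG.smul_eq_zero_iff hf]
  have := congr(($(kernel.condition (π n))).app V.1 m)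
  exact this

/-- `t n : G n ⟶ G (n+1) ⊗ L`, multiplication by the section. -/
noncomputable def t (n : ℕ) : G n ⟶ (DCoh.tensorRightMod L).obj (G (n + 1)) :=
  haveI := hG.epi n
  Abelian.epiDesc (π n) ((sMul σ).app (G (n + 1))) (kernel_π_sMul hG hσ n)

@[reassoc]
theorem π_t (n : ℕ) : π n ≫ t hG hσ n = (sMul σ).app (G (n + 1)) :=
  haveI := hG.epi n
  Abelian.comp_epiDesc (π n) ((sMul σ).app (G (n + 1))) (kernel_π_sMul hG hσ n)

theorem t_app (n : ℕ) {V : X.affineOpens} {e : Γ(L, V.1)} {f : Γ(X, V.1)} (h : IsFrame 𝓘 σ V e f)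
    (g : Γ(G (n + 1), V.1)) : (t hG hσ n).app V.1 ((π n).app V.1 g) = tmul (f • g) e := by
  rw [← h.sMul_app]
  exact congr(($(π_t hG hσ n)).app V.1 g)

theorem t_toZero (n : ℕ) : t hG hσ n ≫ (DCoh.tensorRightMod L).map (toZero π (n + 1)) = 0 := by
  apply hom_eq_zero_of_frame hσ
  intro V e f hf m
  obtain ⟨g, rfl⟩ := hG.app_surjective n V m
  change ((DCoh.tensorRightMod L).map (toZero π (n + 1))).app V.1 ((t hG hσ n).app V.1 ((π n).app V.1 g)) = 0
  rw [t_app hG hσ n hf, map_tmul, (hG.toZero_app_eq_zero_iff hf (n + 1) _).2 ⟨g, rfl⟩]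
  exact Ega2.TensGen.zero_tmul e

/-- `0 → G n → T G (n+1) → T G 0 → 0` as a short complex. -/
noncomputable def S (n : ℕ) : ShortComplex X.Modules :=
  ShortComplex.mk (t hG hσ n) ((DCoh.tensorRightMod L).map (toZero π (n + 1))) (t_toZero hG hσ n)

theorem shortExact_S (n : ℕ) : (S hG hσ n).ShortExact := by
  refine VarietyB.ExactLoc.shortExact_of_local _ ?_ ?_ ?_
  · intro U s hs
    refine eq_zero_of_frame hσ _ fun V hV e f hf => ?_
    obtain ⟨g, hg⟩ := hG.app_surjective n V (res (G n) hV s)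
    have h1 : (t hG hσ n).app V.1 (res (G n) hV s) = 0 := by
      rw [app_res]
      exact (congrArg _ hs).trans (map_zero _)
    rw [← hg, t_app hG hσ n hf] at h1
    have h2 := Ega2.TensGen.tmul_gen_eq_zero hf.gen h1
    refine hg.symm.trans ?_
    exact (hG.smul_eq_zero_iff hf n g).1 h2
  · intro U s hs x hx
    obtain ⟨V, e, f, hxV, hV, hf⟩ := hσ U x hx
    refine ⟨V.1, hV, hxV, ?_⟩
    obtain ⟨g, hg⟩ := hf.exists_eq_tmul (G := G (n + 1)) (res _ hV s)
    have h1 : ((DCoh.tensorRightMod L).map (toZero π (n + 1))).app V.1 (tmul g e) = 0 := by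
      rw [← hg, app_res]
      exact (congrArg _ hs).trans (map_zero _)
    rw [map_tmul] at h1
    obtain ⟨g', rfl⟩ := (hG.toZero_app_eq_zero_iff hf (n + 1) g).1 (Ega2.TensGen.tmul_gen_eq_zero hf.gen h1)
    exact ⟨(π n).app V.1 g', (t_app hG hσ n hf g').trans hg.symm⟩
  · intro U s x hx
    obtain ⟨V, e, f, hxV, hV, hf⟩ := hσ U x hx
    refine ⟨V.1, hV, hxV, ?_⟩
    obtain ⟨g, hg⟩ := hf.exists_eq_tmul (G := G 0) (res _ hV s)
    obtain ⟨g', rfl⟩ := hG.app_toZero_surjective (n + 1) V g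
    exact ⟨tmul g' e, (map_tmul _ _).trans hg.symm⟩

@[reassoc]
theorem t_map_π (n : ℕ) : t hG hσ (n + 1) ≫ (DCoh.tensorRightMod L).map (π (n + 1)) = π n ≫ t hG hσ n := by
  have := hG.epi (n + 1)
  rw [← cancel_epi (π (n + 1)), π_t_assoc, π_t]
  exact ((sMul σ).naturality (π (n + 1))).symm

/-- The morphism of exact sequences for `n + 1` and `n`. -/
noncomputable def Smap (n : ℕ) : S hG hσ (n + 1) ⟶ S hG hσ n where
  τ₁ := π n
  τ₂ := (DCoh.tensorRightMod L).map (π (n + 1))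
  τ₃ := 𝟙 _
  comm₁₂ := (t_map_π hG hσ n).symm
  comm₂₃ := by
    change (DCoh.tensorRightMod L).map (π (n + 1)) ≫ (DCoh.tensorRightMod L).map (toZero π (n + 1)) =
      (DCoh.tensorRightMod L).map (π (n + 1) ≫ toZero π (n + 1)) ≫ 𝟙 _
    rw [Category.comp_id, Functor.map_comp]

end T

end Groth.Agent.Sga2lef.H83.Sys
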