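import Groth.Agent.Sga2lef.H83.Sys
import Groth.Agent.CohqB.HSeqMod
import Groth.Agent.FormalB.HHLin
import Groth.Agent.Sga2.ThickCoh
import Groth.Agent.Ega2.GlobGenCrit

/-!
# Twists of the exact sequences of a regular system

* `Tpow L a`: the `a`-fold twist `- ⊗ L ⊗ ⋯ ⊗ L`, exact.
* `kerIso`: `ker (π n) ≅ T (ker (π (n+1)))`; `kerTpow`: `T^a (ker (π (n+a))) ≅ ker (π n)`.

Author: helper83
-/

set_option autoImplicit false
universe u

open CategoryTheory CategoryTheory.Limits AlgebraicGeometry Opposite TopologicalSpace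

namespace Groth.Agent.Sga2lef.H83.Twist

open Groth.Agent Groth.Agent.Fdesc.LocGen Groth.Agent.FormalB.KQuot Groth.Agent.FormalB.TrKQuot
  Groth.Agent.Sga2lef.H83.Frame Groth.Agent.Sga2lef.H83.Sys

variable {X : Scheme.{u}}

/-- The `a`-fold twist by `L`. -/
noncomputable def Tpow (L : X.Modules) : ℕ → (X.Modules ⥤ X.Modules)
  | 0 => 𝟭 _
  | a + 1 => DCoh.tensorRightMod L ⋙ Tpow L a

theorem preservesLim {L : X.Modules} (hL : PicF.IsInvertible L) (a : ℕ) :
    PreservesFiniteLimits (Tpow L a) ∧ PreservesFiniteColimits (Tpow L a) ∧ (Tpow L a).Additive := by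
  induction a with
  | zero =>
    refine ⟨inferInstanceAs (PreservesFiniteLimits (𝟭 _)), inferInstanceAs (PreservesFiniteColimits (𝟭 _)),
      inferInstanceAs ((𝟭 X.Modules).Additive)⟩
  | succ a ih =>
    obtain ⟨h1, h2, h3⟩ := ih
    have := PerfB.TensInv.preservesFiniteLimits_of_isInvertible hL
    refine ⟨comp_preservesFiniteLimits _ _, comp_preservesFiniteColimits _ _,
      inferInstanceAs ((DCoh.tensorRightMod L ⋙ Tpow L a).Additive)⟩

/-- `T^a` is exact. -/
theorem shortExact_Tpow {L : X.Modules} (hL : PicF.IsInvertible L) (a : ℕ) {S : ShortComplex X.Modules}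
    (hS : S.ShortExact) : haveI := (preservesLim hL a).2.2; (S.map (Tpow L a)).ShortExact := by
  obtain ⟨h1, h2, h3⟩ := preservesLim hL a
  exact hS.map_of_exact (Tpow L a)

theorem isCoh_Tpow {L : X.Modules} (hL : PicF.IsInvertible L) (a : ℕ) :
    ∀ {M : X.Modules}, Coh.IsCoh M → Coh.IsCoh ((Tpow L a).obj M) := by
  induction a with
  | zero => exact fun h => h
  | succ a ih => exact fun h => ih (Ega2.GlobGenCrit.isCoh_tensor h hL)

/-- `T^a M ≅ M ⊗ L^a`. -/
theorem nonempty_iso_Tpow (L : X.Modules) (a : ℕ) :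
    ∀ (M : X.Modules), Nonempty ((Tpow L a).obj M ≅ CohB1.tensorMod M (CohB1.tensorPow L a)) := by
  induction a with
  | zero => exact fun M => ⟨(Ega2.Tens.runit M).symm⟩
  | succ a ih =>
    intro M
    obtain ⟨e⟩ := ih (CohB1.tensorMod M L)
    exact ⟨e ≪≫ Ega2.Tens.assoc _ _ _ ≪≫ Ega2.Tens.mapTIso (Iso.refl M) (Ega2.Tens.swap _ _)⟩

section Ker

variable {𝓘 : X.IdealSheafData} {G : ℕ → X.Modules} {π : ∀ n, G (n + 1) ⟶ G n} (hG : IsRegSys 𝓘 G π)
  {L : X.Modules} {σ : Coh.structureModule X ⟶ L} (hσ : HasFrame 𝓘 σ)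

include hG hσ in
theorem nonempty_kerIso_aux (n : ℕ) :
    Nonempty (kernel (π n) ≅ kernel ((DCoh.tensorRightMod L).map (π (n + 1)))) := by
  have hm1 : Mono (t hG hσ n) := (shortExact_S hG hσ n).mono_f
  have hm2 : Mono (t hG hσ (n + 1)) := (shortExact_S hG hσ (n + 1)).mono_f
  have hm3 : Mono (S hG hσ (n + 1)).f := hm2
  let a : kernel (π n) ⟶ kernel ((DCoh.tensorRightMod L).map (π (n + 1))) :=
    kernel.lift _ (kernel.ι (π n) ≫ t hG hσ (n + 1)) (by
      rw [Category.assoc, t_map_π, kernel.condition_assoc, zero_comp])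
  have ha : a ≫ kernel.ι _ = kernel.ι (π n) ≫ t hG hσ (n + 1) := kernel.lift_ι _ _ _
  have h0 : kernel.ι ((DCoh.tensorRightMod L).map (π (n + 1))) ≫
      (DCoh.tensorRightMod L).map (toZero π (n + 2)) = 0 := by
    change kernel.ι ((DCoh.tensorRightMod L).map (π (n + 1))) ≫
      (DCoh.tensorRightMod L).map (π (n + 1) ≫ toZero π (n + 1)) = 0
    rw [Functor.map_comp, kernel.condition_assoc, zero_comp]
  let l : kernel ((DCoh.tensorRightMod L).map (π (n + 1))) ⟶ G (n + 1) :=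
    (shortExact_S hG hσ (n + 1)).exact.lift (kernel.ι _) h0
  have hl : l ≫ t hG hσ (n + 1) = kernel.ι _ := (shortExact_S hG hσ (n + 1)).exact.lift_f _ h0
  have hl' : l ≫ π n = 0 := by
    rw [← cancel_mono (t hG hσ n), Category.assoc, ← t_map_π, reassoc_of% hl, kernel.condition, zero_comp]
  let b : kernel ((DCoh.tensorRightMod L).map (π (n + 1))) ⟶ kernel (π n) := kernel.lift _ l hl'
  have hb : b ≫ kernel.ι _ = l := kernel.lift_ι _ _ _
  refine ⟨⟨a, b, ?_, ?_⟩⟩
  · rw [← cancel_mono (kernel.ι (π n)), ← cancel_mono (t hG hσ (n + 1)), Category.assoc, Category.assoc,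
      reassoc_of% hb, hl, ha, Category.id_comp]
  · rw [← cancel_mono (kernel.ι _), Category.assoc, ha, reassoc_of% hb, hl, Category.id_comp]

include hG hσ in
theorem nonempty_kerIso (hL : PicF.IsInvertible L) (n : ℕ) :
    Nonempty (kernel (π n) ≅ (DCoh.tensorRightMod L).obj (kernel (π (n + 1)))) := by
  obtain ⟨e⟩ := nonempty_kerIso_aux hG hσ n
  have := PerfB.TensInv.preservesFiniteLimits_of_isInvertible hL
  exact ⟨e ≪≫ (PreservesKernel.iso (DCoh.tensorRightMod L) (π (n + 1))).symm⟩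

include hG hσ in
theorem nonempty_kerIso_zero (hL : PicF.IsInvertible L) :
    Nonempty (G 0 ≅ (DCoh.tensorRightMod L).obj (kernel (π 0))) := by
  have := PerfB.TensInv.preservesFiniteLimits_of_isInvertible hL
  have hm1 : Mono (t hG hσ 0) := (shortExact_S hG hσ 0).mono_f
  have hm3 : Mono (S hG hσ 0).f := hm1
  have h0 : kernel.ι ((DCoh.tensorRightMod L).map (π 0)) ≫
      (DCoh.tensorRightMod L).map (toZero π 1) = 0 := by
    change kernel.ι ((DCoh.tensorRightMod L).map (π 0)) ≫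
      (DCoh.tensorRightMod L).map (π 0 ≫ 𝟙 _) = 0
    rw [Functor.map_comp, kernel.condition_assoc, zero_comp]
  have h1 : t hG hσ 0 ≫ (DCoh.tensorRightMod L).map (π 0) = 0 := by
    have h2 : t hG hσ 0 ≫ (DCoh.tensorRightMod L).map (π 0 ≫ 𝟙 _) = 0 := t_toZero hG hσ 0
    rwa [Category.comp_id] at h2
  let a : G 0 ⟶ kernel ((DCoh.tensorRightMod L).map (π 0)) := kernel.lift _ (t hG hσ 0) h1
  have ha : a ≫ kernel.ι _ = t hG hσ 0 := kernel.lift_ι _ _ _
  let l : kernel ((DCoh.tensorRightMod L).map (π 0)) ⟶ G 0 :=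
    (shortExact_S hG hσ 0).exact.lift (kernel.ι _) h0
  have hl : l ≫ t hG hσ 0 = kernel.ι _ := (shortExact_S hG hσ 0).exact.lift_f _ h0
  have e : G 0 ≅ kernel ((DCoh.tensorRightMod L).map (π 0)) := by
    refine ⟨a, l, ?_, ?_⟩
    · rw [← cancel_mono (t hG hσ 0), Category.assoc, hl, ha, Category.id_comp]
    · rw [← cancel_mono (kernel.ι _), Category.assoc, ha, hl, Category.id_comp]
  exact ⟨e ≪≫ (PreservesKernel.iso (DCoh.tensorRightMod L) (π 0)).symm⟩

include hG hσ in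
theorem nonempty_ker_Tpow (hL : PicF.IsInvertible L) (a : ℕ) : ∀ n,
    Nonempty ((Tpow L a).obj (kernel (π (n + a))) ≅ kernel (π n)) := by
  induction a with
  | zero => exact fun n => ⟨Iso.refl _⟩
  | succ a ih =>
    intro n
    obtain ⟨e⟩ := ih n
    obtain ⟨e'⟩ := nonempty_kerIso hG hσ hL (n + a)
    exact ⟨(Tpow L a).mapIso e'.symm ≪≫ e⟩

include hG hσ in
theorem nonempty_ker_Tpow_zero (hL : PicF.IsInvertible L) (n : ℕ) :
    Nonempty ((Tpow L (n + 1)).obj (kernel (π n)) ≅ G 0) := by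
  have h := nonempty_ker_Tpow hG hσ hL n 0
  rw [zero_add] at h
  obtain ⟨e⟩ := h
  obtain ⟨e0⟩ := nonempty_kerIso_zero hG hσ hL
  have h2 : ∀ (m : ℕ) (M : X.Modules), Nonempty ((Tpow L (m + 1)).obj M ≅
      (DCoh.tensorRightMod L).obj ((Tpow L m).obj M)) := by
    intro m
    induction m with
    | zero => exact fun M => ⟨Iso.refl _⟩
    | succ m ih => exact fun M => ih _
  obtain ⟨e2⟩ := h2 n (kernel (π n))
  exact ⟨e2 ≪≫ (DCoh.tensorRightMod L).mapIso e ≪≫ e0.symm⟩

end Ker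

end Groth.Agent.Sga2lef.H83.Twist
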